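import Cfsg.Agent.CIT38.Sz.Simple

/-!
Equivariant pairings between fixed-point-free modules of Suzuki groups vanish.
-/

set_option autoImplicit false
set_option linter.unusedSectionVars false

universe u

namespace Cfsg.Agent.CIT38.Sz

open Suzuki Matrix

variable {F : Type*} [Field F] [Fintype F] {m : ℕ} [hS : SuzukiField F m]

theorem exists_th_ne : ∃ a : F, a ≠ 0 ∧ th F m a ≠ a := by
  obtain ⟨x, hx0, hx1⟩ := exists_ne_zero_ne_one (F := F) (m := m)
  exact ⟨x, hx0, fun e => (th_eq_self e).elim hx0 hx1⟩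

/-- An endomorphism of the natural module commuting with the unipotent subgroup is a scalar on the
fixed line; if that scalar vanishes its image lies in the upper half. -/
theorem endo_unip (L : (Fin 4 → F) →+ (Fin 4 → F))
    (hL : ∀ a b v, L (nat F m (gT a b) v) = nat F m (gT a b) (L v)) :
    (∀ x : F, L ![x, 0, 0, 0] = ![x * L ![0, 0, 0, 1] 3, 0, 0, 0]) ∧
      (L ![0, 0, 0, 1] 3 = 0 →
        (∀ x : F, L ![0, x, 0, 0] = 0) ∧ (∀ x : F, L ![0, 0, x, 0] = ![x * L ![0, 0, 0, 1] 1, 0, 0, 0]) ∧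
          (∀ d : F, L ![0, 0, 0, d] 2 = 0 ∧ L ![0, 0, 0, d] 3 = 0 ∧
            L ![0, 0, 0, d] 1 = d * L ![0, 0, 0, 1] 1)) := by
  haveI : CharP F 2 := suzukiField_charP (m := m)
  set v : F → Fin 4 → F := fun d => L ![0, 0, 0, d] with hv
  have hdiff : ∀ a b w, L (nat F m (gT a b) w + w) = nat F m (gT a b) (L w) + L w := fun a b w => by
    rw [map_add, hL]
  -- the central elements on the bottom line
  have hZ : ∀ b d, L ![th F m b * d, b * d, 0, 0] =
      ![b * v d 2 + th F m b * v d 3, b * v d 3, 0, 0] := by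
    intro b d
    have h := hdiff 0 b ![0, 0, 0, d]
    rw [nat_gZ, nat_gZ] at h
    convert h using 1
    · congr 1; ext i; fin_cases i <;> simp [CharTwo.add_self_eq_zero]
    · ext i; fin_cases i <;> simp [hv, CharTwo.add_self_eq_zero] <;> grind
  have hA : ∀ a d, L ![th F m a * a ^ 2 * d, 0, a * d, 0] =
      ![a * v d 1 + th F m a * a * v d 2 + th F m a * a ^ 2 * v d 3, th F m a * v d 2, a * v d 3, 0] := by
    intro a d
    have h := hdiff a 0 ![0, 0, 0, d]
    rw [nat_gA, nat_gA] at h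
    convert h using 1
    · congr 1; ext i; fin_cases i <;> simp [CharTwo.add_self_eq_zero]
    · ext i; fin_cases i <;> simp [hv, CharTwo.add_self_eq_zero] <;> grind
  have h0' : ∀ a b d : F, L ![a * (b * d), 0, 0, 0] = ![a * (b * v d 3), 0, 0, 0] := by
    intro a b d
    have h := hdiff a 0 ![th F m b * d, b * d, 0, 0]
    rw [hZ, nat_gA, nat_gA] at h
    convert h using 1
    · congr 1; ext i; fin_cases i <;> simp [CharTwo.add_self_eq_zero] <;> grind
    · ext i; fin_cases i <;> simp [CharTwo.add_self_eq_zero] <;> grind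
  have h0 : ∀ x : F, L ![x, 0, 0, 0] = ![x * v 1 3, 0, 0, 0] := fun x => by
    simpa using h0' x 1 1
  refine ⟨h0, fun hτ => ?_⟩
  have hz : ∀ x : F, L ![x, 0, 0, 0] = 0 := fun x => by
    rw [h0, show v 1 3 = 0 from hτ, mul_zero]; ext i; fin_cases i <;> rfl
  have hv3 : ∀ d, v d 3 = 0 := fun d => by
    have := congrFun (h0' 1 1 d) 0
    rw [hz] at this
    simpa using this.symm
  have h1' : ∀ b d : F, L ![0, b * d, 0, 0] = ![b * v d 2, 0, 0, 0] := by
    intro b d
    have h := hZ b d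
    rw [show (![th F m b * d, b * d, 0, 0] : Fin 4 → F) = ![th F m b * d, 0, 0, 0] + ![0, b * d, 0, 0] by
      ext i; fin_cases i <;> simp, map_add, hz, zero_add, hv3, mul_zero, mul_zero, add_zero] at h
    exact h
  set ρ₂ := v 1 2 with hρ
  have hv2 : ∀ d, v d 2 = d * ρ₂ := fun d => by
    have e1 := congrFun (h1' d 1) 0
    have e2 := congrFun (h1' 1 d) 0
    rw [mul_one] at e1
    rw [one_mul] at e2
    simpa using (e2.symm.trans e1)
  have hA' : ∀ a d : F, L ![0, 0, a * d, 0] =
      ![a * v d 1 + th F m a * a * v d 2, th F m a * v d 2, 0, 0] := by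
    intro a d
    have h := hA a d
    rw [show (![th F m a * a ^ 2 * d, 0, a * d, 0] : Fin 4 → F) =
        ![th F m a * a ^ 2 * d, 0, 0, 0] + ![0, 0, a * d, 0] by
      ext i; fin_cases i <;> simp, map_add, hz, zero_add, hv3, mul_zero, mul_zero, add_zero] at h
    exact h
  have hρ0 : ρ₂ = 0 := by
    obtain ⟨a, ha0, ha⟩ := exists_th_ne (F := F) (m := m)
    have e1 := congrFun (hA' a 1) 1
    have e2 := congrFun (hA' 1 a) 1
    rw [mul_one] at e1
    rw [one_mul] at e2
    rw [e1] at e2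
    simp [hv2] at e2
    rcases e2 with e | e
    · exact absurd e ha
    · exact e
  have hv2' : ∀ d, v d 2 = 0 := fun d => by rw [hv2, hρ0, mul_zero]
  refine ⟨fun x => ?_, fun x => ?_, fun d => ⟨hv2' d, hv3 d, ?_⟩⟩
  · have := h1' x 1
    rw [mul_one, hv2', mul_zero] at this
    rw [this]; ext i; fin_cases i <;> rfl
  · have := hA' x 1
    rw [mul_one, hv2', mul_zero, mul_zero, add_zero] at this
    exact this
  · have e1 := congrFun (hA' d 1) 0
    have e2 := congrFun (hA' 1 d) 0
    rw [mul_one] at e1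
    rw [one_mul] at e2
    rw [e1] at e2
    simp [hv2'] at e2
    exact e2.symm

theorem pairing_natural (b : (Fin 4 → F) →+ (Fin 4 → F) →+ (Fin 4 → F))
    (hb : IsEquiv2 (nat F m) (nat F m) (nat F m) b) : b = 0 := by
  classical
  haveI : CharP F 2 := suzukiField_charP (m := m)
  set e0 : F → Fin 4 → F := fun x => ![x, 0, 0, 0] with he0
  have hfix : ∀ a c x, nat F m (gT a c) (e0 x) = e0 x := by
    intro a c x
    rw [nat_gT]; ext i; fin_cases i <;> simp [he0]
  have hLl : ∀ x a c w, b (e0 x) (nat F m (gT a c) w) = nat F m (gT a c) (b (e0 x) w) := fun x a c w => by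
    conv_lhs => rw [← hfix a c x]
    exact hb _ _ _
  have hLr : ∀ x a c w, b.flip (e0 x) (nat F m (gT a c) w) = nat F m (gT a c) (b.flip (e0 x) w) := fun x a c w => by
    show b (nat F m (gT a c) w) (e0 x) = _
    conv_lhs => rw [← hfix a c x]
    exact hb _ _ _
  -- the pairing vanishes on the fixed line
  have htop : ∀ c d, b (e0 c) (e0 d) = 0 := by
    set K := b (e0 1) ![0, 0, 0, 1] 3 with hK
    set K' := b ![0, 0, 0, 1] (e0 1) 3 with hK'
    have h1 : ∀ c d, b (e0 c) (e0 d) = e0 (d * (c * K')) := by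
      intro c d
      have e1 := (endo_unip (b (e0 c)) (hLl c)).1 d
      have e2 := (endo_unip (b (e0 c)) (hLl c)).1 1
      have e3 := (endo_unip (b.flip (e0 1)) (hLr 1)).1 c
      rw [e1]
      have : b (e0 c) (e0 1) = b.flip (e0 1) (e0 c) := rfl
      rw [e2, e3] at this
      have h0 := congrFun this 0
      simp at h0
      rw [h0]
    suffices hK0 : K' = 0 by
      intro c d; rw [h1, hK0, mul_zero, mul_zero]; ext i; fin_cases i <;> rfl
    obtain ⟨x, hx0, hx1⟩ := exists_ne_zero_ne_one (F := F) (m := m)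
    obtain ⟨l, hl⟩ := exists_wt_eq (m := m) hx0
    have hD : ∀ z, nat F m (gD l) (e0 z) = e0 (x * z) := fun z => by
      rw [nat_gD, ← hl, wt_apply]; ext i; fin_cases i <;> simp [he0]
    have h2 := hb (gD l) (e0 1) (e0 1)
    rw [hD, h1, h1, hD, mul_one, one_mul, one_mul] at h2
    have h3 : x * (x * K') = x * K' := by simpa [he0] using congrFun h2 0
    by_contra hne
    exact hx1 (mul_right_cancel₀ hne ((mul_left_cancel₀ hx0 h3).trans (one_mul K').symm))
  -- so it vanishes on the fixed line in the first argument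
  have hτl : ∀ c, b (e0 c) ![0, 0, 0, 1] 3 = 0 := fun c => by
    have := congrFun ((endo_unip (b (e0 c)) (hLl c)).1 1) 0
    rw [show (![1, 0, 0, 0] : Fin 4 → F) = e0 1 from rfl, htop] at this
    simpa using this.symm
  have hτr : ∀ c, b.flip (e0 c) ![0, 0, 0, 1] 3 = 0 := fun c => by
    have := congrFun ((endo_unip (b.flip (e0 c)) (hLr c)).1 1) 0
    rw [show b.flip (e0 c) ![1, 0, 0, 0] = b (e0 1) (e0 c) from rfl, htop] at this
    simpa using this.symm
  have hbot : ∀ c d, b (e0 c) ![0, 0, 0, d] = 0 := by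
    intro c d
    obtain ⟨h2, h3, -⟩ := ((endo_unip (b (e0 c)) (hLl c)).2 (hτl c)).2.2 d
    obtain ⟨k2, k3, -⟩ := ((endo_unip (b.flip (e0 d)) (hLr d)).2 (hτr d)).2.2 c
    have hw := hb (gW F m) ![0, 0, 0, c] (e0 d)
    have e1 : nat F m (gW F m) ![0, 0, 0, c] = e0 c := by
      rw [nat_gW]; ext i; fin_cases i <;> simp [he0]
    have e2 : nat F m (gW F m) (e0 d) = ![0, 0, 0, d] := by
      rw [nat_gW]; ext i; fin_cases i <;> simp [he0]
    rw [e1, e2, nat_gW] at hw
    have k2' : b ![0, 0, 0, c] (e0 d) 2 = 0 := k2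
    have k3' : b ![0, 0, 0, c] (e0 d) 3 = 0 := k3
    ext i
    fin_cases i
    · simpa [k3'] using congrFun hw 0
    · simpa [k2'] using congrFun hw 1
    · exact h2
    · exact h3
  have hzero : ∀ c w, b (e0 c) w = 0 := by
    intro c w
    obtain ⟨q1, q2, -⟩ := (endo_unip (b (e0 c)) (hLl c)).2 (hτl c)
    rw [show w = e0 (w 0) + ![0, w 1, 0, 0] + ![0, 0, w 2, 0] + ![0, 0, 0, w 3] by
      ext i; fin_cases i <;> simp [he0], map_add, map_add, map_add, htop, q1, q2, hbot, hbot]
    ext i; fin_cases i <;> simp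
  have hker : Invar (nat F m) b.ker := fun g v hv => by
    rw [AddMonoidHom.mem_ker] at hv ⊢
    refine AddMonoidHom.ext fun w => ?_
    conv_lhs => rw [← ρ_apply_inv (nat F m) g w]
    rw [hb, hv]
    exact map_zero _
  have hne : b.ker ≠ ⊥ := fun e => by
    have h1 : e0 1 ∈ b.ker := AddMonoidHom.mem_ker.mpr (AddMonoidHom.ext (hzero 1))
    rw [e, AddSubgroup.mem_bot] at h1
    simpa [he0] using congrFun h1 0
  refine AddMonoidHom.ext fun v => ?_
  have h2 : v ∈ b.ker := invariant_eq_top hker hne ▸ AddSubgroup.mem_top v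
  exact h2

end Cfsg.Agent.CIT38.Sz
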