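import Cfsg.Agent.Suzuki.Field
import Mathlib.FieldTheory.Finite.Basic

/-!
Semilinear components of additive maps of a finite field, and two functional equations.
-/

set_option autoImplicit false
set_option linter.unusedSectionVars false

namespace Cfsg.Agent.CIT38.Sz

open Suzuki

variable {F : Type*} [Field F] [Fintype F] [DecidableEq F]

/-- The component of `f` semilinear for `x ↦ x ^ 2 ^ i`. -/
def coef (i : ℕ) (f : F → F) : F := ∑ x : Fˣ, f x * ((x⁻¹ : Fˣ) : F) ^ 2 ^ i

theorem coef_add (i : ℕ) (f g : F → F) : coef i (fun x => f x + g x) = coef i f + coef i g := by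
  simp [coef, add_mul, Finset.sum_add_distrib]

theorem coef_mul_left (i : ℕ) (a : F) (f : F → F) : coef i (fun x => a * f x) = a * coef i f := by
  simp [coef, Finset.mul_sum, mul_assoc]

theorem coef_mul_right (i : ℕ) (a : F) (f : F → F) (h0 : f 0 = 0) :
    coef i (fun x => f (a * x)) = a ^ 2 ^ i * coef i f := by
  rcases eq_or_ne a 0 with rfl | ha
  · simp [coef, h0, zero_pow (pow_ne_zero i (two_ne_zero : (2 : ℕ) ≠ 0))]
  rw [coef, coef, Finset.mul_sum]
  refine Fintype.sum_equiv (Equiv.mulLeft (Units.mk0 a ha)) _ _ fun x => ?_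
  simp only [Equiv.coe_mulLeft, Units.val_mul, Units.val_mk0, mul_inv_rev, Units.val_inv_eq_inv_val]
  field_simp
  rw [mul_assoc, ← mul_pow]
  field_simp

variable {m : ℕ} [hS : SuzukiField F m]

/-- An additive map with vanishing components is zero. -/
theorem eq_zero_of_coef (f : F →+ F) (h : ∀ i < 2 * m + 1, coef i f = 0) : f = 0 := by
  haveI : CharP F 2 := suzukiField_charP (m := m)
  set n := 2 * m + 1 with hn
  have hq : Fintype.card F = 2 ^ n := hS.card
  set tr : F → F := fun z => ∑ i ∈ Finset.range n, z ^ 2 ^ i with htr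
  have htr01 : ∀ z, tr z = 0 ∨ tr z = 1 := by
    intro z
    have hsq : tr z ^ 2 = tr z := by
      rw [htr]
      simp only
      rw [sum_pow_char 2]
      have e1 : ∀ i, (z ^ 2 ^ i) ^ 2 = z ^ 2 ^ (i + 1) := fun i => by rw [← pow_mul, ← pow_succ]
      simp only [e1]
      have e := Finset.sum_range_succ (fun i => z ^ 2 ^ i) n
      rw [Finset.sum_range_succ' (fun i => z ^ 2 ^ i) n, ← hq, FiniteField.pow_card, pow_zero,
        pow_one] at e
      exact add_right_cancel e
    have h2 : tr z * (tr z - 1) = 0 := by linear_combination hsq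
    rcases mul_eq_zero.mp h2 with e | e
    · exact Or.inl e
    · exact Or.inr (sub_eq_zero.mp e)
  refine AddMonoidHom.ext fun y => ?_
  show f y = 0
  rcases eq_or_ne y 0 with rfl | hy
  · exact map_zero f
  have h1 : ∑ x : Fˣ, f x * tr (y * ((x⁻¹ : Fˣ) : F)) = 0 := by
    simp only [htr, Finset.mul_sum]
    rw [Finset.sum_comm]
    refine Finset.sum_eq_zero fun i hi => ?_
    have : ∀ x : Fˣ, f x * (y * ((x⁻¹ : Fˣ) : F)) ^ 2 ^ i =
        y ^ 2 ^ i * (f x * ((x⁻¹ : Fˣ) : F) ^ 2 ^ i) := fun x => by rw [mul_pow]; ring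
    simp only [this, ← Finset.mul_sum]
    rw [show ∑ x : Fˣ, f x * ((x⁻¹ : Fˣ) : F) ^ 2 ^ i = coef i f by unfold coef; rfl,
      h i (Finset.mem_range.mp hi), mul_zero]
  have h2 : ∀ x : Fˣ, f x * tr (y * ((x⁻¹ : Fˣ) : F)) = f ((x : F) * tr (y * ((x⁻¹ : Fˣ) : F))) := by
    intro x
    rcases htr01 (y * ((x⁻¹ : Fˣ) : F)) with e | e <;> rw [e] <;> simp
  simp only [h2, ← map_sum] at h1
  suffices hsum : ∑ x : Fˣ, (x : F) * tr (y * ((x⁻¹ : Fˣ) : F)) = y by rwa [hsum] at h1
  rw [Fintype.sum_equiv (Equiv.mulLeft (Units.mk0 y hy)⁻¹) (fun x : Fˣ => (x : F) * tr (y * ((x⁻¹ : Fˣ) : F)))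
    (fun z : Fˣ => y * ((z : F) * tr ((z⁻¹ : Fˣ) : F))) fun x => by
      simp [Units.val_inv_eq_inv_val]; field_simp]
  rw [← Finset.mul_sum]
  suffices h3 : ∑ z : Fˣ, (z : F) * tr ((z⁻¹ : Fˣ) : F) = 1 by rw [h3, mul_one]
  simp only [htr, Finset.mul_sum]
  rw [Finset.sum_comm, Finset.sum_eq_single 0]
  · simp only [pow_zero, pow_one, Units.mul_inv, Finset.sum_const, Finset.card_univ,
      Fintype.card_units, nsmul_one, hq, Nat.cast_sub (Nat.one_le_two_pow : 1 ≤ 2 ^ n)]
    simp [hn, CharTwo.two_eq_zero, CharTwo.neg_eq]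
  · intro i hi hi0
    have hsum := FiniteField.sum_pow_units F (2 ^ i - 1)
    rw [if_neg] at hsum
    · rw [← hsum]
      refine Fintype.sum_equiv (Equiv.inv Fˣ) _ _ fun x => ?_
      simp only [Equiv.inv_apply]
      conv_lhs => rw [show (2 : ℕ) ^ i = 2 ^ i - 1 + 1 by
        have := Nat.one_le_two_pow (n := i); omega, pow_succ]
      rw [Units.val_inv_eq_inv_val]
      field_simp
    · intro hd
      rw [hq] at hd
      have h4 : 2 ^ i - 1 < 2 ^ n - 1 := by
        have := Nat.pow_lt_pow_right (by norm_num : 1 < 2) (Finset.mem_range.mp hi)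
        have := Nat.one_le_two_pow (n := i)
        omega
      have h5 : 2 ≤ 2 ^ i := by
        calc 2 = 2 ^ 1 := rfl
          _ ≤ 2 ^ i := Nat.pow_le_pow_right (by norm_num) (Nat.one_le_iff_ne_zero.mpr hi0)
      have := Nat.eq_zero_of_dvd_of_lt hd h4
      omega
  · exact fun h => absurd (Finset.mem_range.mpr (by omega)) h

theorem exists_pow_ne {i : ℕ} (hi0 : i ≠ 0) (hi : i < 2 * m + 1) : ∃ a : F, a ^ 2 ^ i ≠ a := by
  by_contra hc
  push Not at hc
  obtain ⟨g, hg⟩ := IsCyclic.exists_generator (α := Fˣ)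
  have ho : orderOf g = Fintype.card F - 1 := by
    rw [orderOf_eq_card_of_forall_mem_zpowers hg, Nat.card_eq_fintype_card, Fintype.card_units]
  have h1 : g ^ (2 ^ i - 1) = 1 := by
    refine mul_right_cancel (b := g) ?_
    rw [← pow_succ, one_mul, Nat.sub_add_cancel Nat.one_le_two_pow]
    exact Units.ext (by rw [Units.val_pow_eq_pow_val]; exact hc g)
  have hd := orderOf_dvd_of_pow_eq_one h1
  rw [ho, hS.card] at hd
  have h4 : 2 ^ i - 1 < 2 ^ (2 * m + 1) - 1 := by
    have := Nat.pow_lt_pow_right (by norm_num : 1 < 2) hi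
    have := Nat.one_le_two_pow (n := i)
    omega
  have h5 : 2 ≤ 2 ^ i := by
    calc 2 = 2 ^ 1 := rfl
      _ ≤ 2 ^ i := Nat.pow_le_pow_right (by norm_num) (Nat.one_le_iff_ne_zero.mpr hi0)
  have := Nat.eq_zero_of_dvd_of_lt hd h4
  omega

/-- An additive map vanishing off the fixed points of a non-identity endomorphism is zero. -/
theorem eq_zero_of_off_fixed (φ : F →+* F) {a : F} (ha : φ a ≠ a) (q : F →+ F)
    (hq : ∀ x, φ x ≠ x → q x = 0) (x : F) : q x = 0 := by
  by_cases hx : φ x = x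
  · have h1 : φ (x + a) ≠ x + a := by rw [map_add, hx]; exact fun e => ha (add_left_cancel e)
    have h2 := hq _ h1
    rwa [map_add, hq a ha, add_zero] at h2
  · exact hq x hx

/-- A bilinear form `γ q β + β q γ` of degree `χ` vanishes. -/
theorem eq_zero_of_degree (m : ℕ) [SuzukiField F m] (χ : F →+* F) {a : F} (ha0 : a ≠ 0) (ha : χ a ≠ a ^ 2) (q : F →+ F)
    (h1 : q 1 = 0) (hdeg : ∀ x β γ : F, x ≠ 0 →
      x * γ * q (x * β) + x * β * q (x * γ) = χ x * (γ * q β + β * q γ)) (β : F) : q β = 0 := by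
  haveI : CharP F 2 := suzukiField_charP (m := m)
  -- the value at a product, computed in two ways
  have hmul : ∀ x β : F, x ≠ 0 → x * q (x * β) = χ x * q β + x * β * q x := by
    intro x β hx
    have := hdeg x β 1 hx
    rw [h1, mul_one, mul_zero, add_zero, one_mul] at this
    rw [← this]
    linear_combination (- (x * β * q x)) * (CharTwo.two_eq_zero (R := F))
  have hsym : ∀ x y : F, x ≠ 0 → y ≠ 0 → q y * (y * (χ x + x * x)) = q x * (x * (χ y + y * y)) := by
    intro x y hx hy
    have e1 := hmul x y hx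
    have e2 := hmul y x hy
    rw [mul_comm y x] at e2
    linear_combination (-y) * e1 + x * e2 +
      (x * x * y * q y - x * y * y * q x) * (CharTwo.two_eq_zero (R := F))
  set K := q a * a / (χ a + a * a) with hK
  have hden : χ a + a * a ≠ 0 := fun e => ha (by rw [pow_two]; exact CharTwo.add_eq_zero.mp e)
  have hform : ∀ y : F, y ≠ 0 → q y * y = K * (χ y + y * y) := by
    intro y hy
    rw [hK, div_mul_eq_mul_div, eq_div_iff hden]
    linear_combination hsym a y ha0 hy
  have ha1 : a ≠ 1 := fun e => ha (by rw [e, map_one, one_pow])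
  have hK0 : K = 0 := by
    have e1 := hform a ha0
    have e2 := hform (a + 1) (fun e => ha1 (CharTwo.add_eq_zero.mp e))
    rw [map_add, h1, add_zero, map_add, map_one] at e2
    have h3 : K * (χ a + a * a) = 0 := by
      linear_combination (a + 1) * e1 - a * e2 +
        (K * χ a - K * a) * (CharTwo.two_eq_zero (R := F))
    exact (mul_eq_zero.mp h3).resolve_right hden
  rcases eq_or_ne β 0 with rfl | hβ
  · exact map_zero q
  · have := hform β hβ
    rw [hK0, zero_mul] at this
    exact (mul_eq_zero.mp this).resolve_right hβ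

end Cfsg.Agent.CIT38.Sz
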