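import Cfsg.Agent.CIT38.Modules
import Cfsg.Agent.Suzuki.Structure

/-!
The natural module of a Suzuki group as an additive group.
-/

set_option autoImplicit false
set_option linter.unusedSectionVars false

namespace Cfsg.Agent.CIT38.Sz

open Suzuki Matrix

variable {F : Type*} [Field F] [Fintype F] {m : ℕ} [hS : SuzukiField F m]

/-- The matrix of an element. -/
def mat (g : Cfsg.Sz F m) : Matrix (Fin 4) (Fin 4) F :=
  (g : SpecialLinearGroup (Fin 4) F).1

theorem mat_mul (g h : Cfsg.Sz F m) : mat (g * h) = mat g * mat h := rfl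

theorem mat_one : mat (1 : Cfsg.Sz F m) = 1 := rfl

variable (F m) in
/-- The natural representation. -/
def nat : Cfsg.Sz F m →* AddMonoid.End (Fin 4 → F) where
  toFun g := ((mat g).mulVecLin.toAddMonoidHom : (Fin 4 → F) →+ (Fin 4 → F))
  map_one' := AddMonoidHom.ext fun v => show mat (1 : Cfsg.Sz F m) *ᵥ v = v by
    rw [mat_one, one_mulVec]
  map_mul' g h := AddMonoidHom.ext fun v => show mat (g * h) *ᵥ v = mat g *ᵥ (mat h *ᵥ v) by
    rw [mat_mul, mulVec_mulVec]

theorem nat_apply (g : Cfsg.Sz F m) (v : Fin 4 → F) : nat F m g v = mat g *ᵥ v := rfl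

theorem nat_gT (a b : F) (v : Fin 4 → F) :
    nat F m (gT a b) v = ![v 0 + a * v 1 + (b + th F m a * a) * v 2 + ovf (th F m) a b * v 3,
      v 1 + th F m a * v 2 + b * v 3, v 2 + a * v 3, v 3] := by
  rw [nat_apply, mat, gT_coe]
  ext i
  fin_cases i <;> simp [matT, Matrix.mulVec, dotProduct, Fin.sum_univ_four]

theorem nat_gZ (b : F) (v : Fin 4 → F) :
    nat F m (gT 0 b) v = ![v 0 + b * v 2 + th F m b * v 3, v 1 + b * v 3, v 2, v 3] := by
  rw [nat_gT]
  ext i
  fin_cases i <;> simp [ovf]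

theorem nat_gA (a : F) (v : Fin 4 → F) :
    nat F m (gT a 0) v = ![v 0 + a * v 1 + th F m a * a * v 2 + th F m a * a ^ 2 * v 3,
      v 1 + th F m a * v 2, v 2 + a * v 3, v 3] := by
  rw [nat_gT]
  ext i
  fin_cases i <;> simp [ovf]

theorem nat_gD (l : Fˣ) (v : Fin 4 → F) :
    nat F m (gD l) v = ![th F m l * (l : F) ^ 2 * v 0, th F m l * v 1, (th F m l)⁻¹ * v 2,
      (th F m l * (l : F) ^ 2)⁻¹ * v 3] := by
  rw [nat_apply, mat, gD_coe]
  ext i
  fin_cases i <;> simp [matD, Matrix.mulVec, dotProduct, Fin.sum_univ_four]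

theorem nat_gW (v : Fin 4 → F) : nat F m (gW F m) v = ![v 3, v 2, v 1, v 0] := by
  rw [nat_apply, mat, gW_coe]
  ext i
  fin_cases i <;> simp [suzukiForm, Matrix.mulVec, dotProduct, Fin.sum_univ_four]

variable (F m) in
/-- The weight of the fixed line. -/
noncomputable def wt : Fˣ →* F where
  toFun l := th F m l * (l : F) ^ 2
  map_one' := by simp
  map_mul' k l := by simp only [Units.val_mul, map_mul]; ring

theorem wt_apply (l : Fˣ) : wt F m l = th F m l * (l : F) ^ 2 := rfl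

theorem wt_ne_zero (l : Fˣ) : wt F m l ≠ 0 := by
  rw [wt_apply]; simp [l.ne_zero]

theorem exists_wt_eq {x : F} (hx : x ≠ 0) : ∃ l : Fˣ, wt F m l = x := by
  classical
  set f : Fˣ →* Fˣ := (wt F m).toHomUnits
  have hf : Function.Injective f := by
    rw [← MonoidHom.ker_eq_bot_iff, Subgroup.eq_bot_iff_forall]
    intro l hl
    have : wt F m l = 1 := congrArg Units.val (MonoidHom.mem_ker.mp hl)
    exact Units.ext (th_mul_sq_eq_one this)
  obtain ⟨l, hl⟩ := (Finite.injective_iff_surjective.mp hf) (Units.mk0 x hx)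
  exact ⟨l, congrArg Units.val hl⟩

theorem gT_sq (a b : F) : (gT a b * gT a b : Cfsg.Sz F m) = gT 0 (th F m a * a) := by
  rw [gT_mul, CharTwo.add_self_eq_zero, CharTwo.add_self_eq_zero, zero_add]

theorem gZ_add (b c : F) : (gT 0 (b + c) : Cfsg.Sz F m) = gT 0 b * gT 0 c := by
  rw [gT_mul]; simp

theorem gZ_comm_gT (b a c : F) : (gT 0 b * gT a c : Cfsg.Sz F m) = gT a c * gT 0 b := by
  rw [gT_mul, gT_mul]; simp [add_comm]

variable (F m) in
/-- The unipotent subgroup. -/
noncomputable def U : Subgroup (Cfsg.Sz F m) := unip F m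

theorem isPGroup_U : IsPGroup 2 (U F m) := by
  rintro ⟨g, a, b, rfl⟩
  refine ⟨2, Subtype.ext ?_⟩
  show (gT a b : Cfsg.Sz F m) ^ (2 ^ 2) = 1
  rw [show (2 ^ 2 : ℕ) = 2 * 2 from rfl, pow_mul, pow_two (gT a b : Cfsg.Sz F m), gT_sq, pow_two, ← gZ_add,
    CharTwo.add_self_eq_zero, gT_zero]

/-- A fixed point of the unipotent subgroup in a non-trivial 2-group. -/
theorem exists_fixed {V : Type*} [AddCommGroup V] [Finite V] (h2 : Exp2 V) [Nontrivial V]
    (ρ : Cfsg.Sz F m →* AddMonoid.End V) : ∃ v : V, v ≠ 0 ∧ ∀ a b, ρ (gT a b) v = v := by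
  classical
  haveI : Fact (Nat.Prime 2) := ⟨Nat.prime_two⟩
  letI : MulAction (U F m) V :=
    { smul := fun g v => ρ (g : Cfsg.Sz F m) v
      one_smul := fun v => ρ_one ρ v
      mul_smul := fun g h v => ρ_mul ρ (g : Cfsg.Sz F m) (h : Cfsg.Sz F m) v }
  have hd : 2 ∣ Nat.card V := by
    obtain ⟨v, hv⟩ := exists_ne (0 : V)
    have ho : addOrderOf v = 2 := addOrderOf_eq_prime (h2.nsmul v) hv
    exact ho ▸ addOrderOf_dvd_natCard v
  obtain ⟨v, hv, hne⟩ := (isPGroup_U (F := F) (m := m)).exists_fixed_point_of_prime_dvd_card_of_fixed_point V hd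
    (a := (0 : V)) (by intro g; show ρ (g : Cfsg.Sz F m) 0 = 0; exact map_zero _)
  exact ⟨v, fun e => hne e.symm, fun a b => hv ⟨gT a b, gT_mem_unip a b⟩⟩

include hS in
theorem nat_exp2 : Exp2 (Fin 4 → F) := fun v => funext fun i => by
  haveI : CharP F 2 := suzukiField_charP (m := m)
  exact CharTwo.add_self_eq_zero (v i)

theorem eq_single_of_fixed {v : Fin 4 → F} (hv : ∀ a b, nat F m (gT a b) v = v) :
    v = ![v 0, 0, 0, 0] := by
  have h1 := hv 0 1
  rw [nat_gZ] at h1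
  have h3 : v 3 = 0 := by simpa using congrFun h1 1
  have h2 : v 2 = 0 := by simpa [h3] using congrFun h1 0
  have h := hv 1 0
  rw [nat_gA] at h
  have h0 : v 1 = 0 := by simpa [h2, h3] using congrFun h 0
  ext i
  fin_cases i <;> simp [h0, h2, h3]

theorem invariant_eq_top {W : AddSubgroup (Fin 4 → F)} (hW : Invar (nat F m) W) (hne : W ≠ ⊥) :
    W = ⊤ := by
  haveI : Nontrivial W := (AddSubgroup.nontrivial_iff_ne_bot W).mpr hne
  obtain ⟨⟨v, hvW⟩, hv0, hv⟩ := exists_fixed (V := W)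
    (fun a => Subtype.ext (nat_exp2 (m := m) (a : Fin 4 → F))) (res hW)
  have hf : v = ![v 0, 0, 0, 0] := eq_single_of_fixed fun a b => congrArg Subtype.val (hv a b)
  have hc : v 0 ≠ 0 := fun e => hv0 (Subtype.ext (by
    show v = 0
    rw [hf, e]; ext i; fin_cases i <;> rfl))
  have h0 : ∀ x : F, (![x, 0, 0, 0] : Fin 4 → F) ∈ W := by
    intro x
    rcases eq_or_ne x 0 with rfl | hx
    · convert W.zero_mem using 1
      ext i; fin_cases i <;> rfl
    · obtain ⟨l, hl⟩ := exists_wt_eq (F := F) (m := m) (x := x / v 0) (div_ne_zero hx hc)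
      have hm := hW (gD l) v hvW
      rw [nat_gD, hf] at hm
      convert hm using 1
      rw [wt_apply] at hl
      ext i; fin_cases i <;> simp [hl, div_mul_cancel₀ x hc]
  have h3 : ∀ x : F, (![0, 0, 0, x] : Fin 4 → F) ∈ W := fun x => by
    have hm := hW (gW F m) _ (h0 x)
    rw [nat_gW] at hm
    convert hm using 1
    ext i; fin_cases i <;> rfl
  have h1 : ∀ x : F, (![0, x, 0, 0] : Fin 4 → F) ∈ W := fun x => by
    have hm := W.sub_mem (W.sub_mem (hW (gT 0 1) _ (h3 x)) (h3 x)) (h0 x)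
    rw [nat_gZ] at hm
    convert hm using 1
    ext i; fin_cases i <;> simp
  have h2 : ∀ x : F, (![0, 0, x, 0] : Fin 4 → F) ∈ W := fun x => by
    have hm := hW (gW F m) _ (h1 x)
    rw [nat_gW] at hm
    convert hm using 1
    ext i; fin_cases i <;> rfl
  refine eq_top_iff.mpr fun u _ => ?_
  convert W.add_mem (W.add_mem (h0 (u 0)) (h1 (u 1))) (W.add_mem (h2 (u 2)) (h3 (u 3))) using 1
  ext i; fin_cases i <;> simp

theorem coord_three_eq_zero {v : Fin 4 → F} (h : ∀ g : Cfsg.Sz F m, nat F m g v 3 = 0) : v = 0 := by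
  have hh : ∀ a b, v 0 + a * v 1 + (b + th F m a * a) * v 2 + ovf (th F m) a b * v 3 = 0 := by
    intro a b
    have := h (gW F m * gT a b)
    rwa [ρ_mul, nat_gW, nat_gT] at this
  have h3 : v 3 = 0 := by simpa [ρ_one] using h 1
  have h0 : v 0 = 0 := by simpa [h3] using hh 0 0
  have h2 : v 2 = 0 := by simpa [h3, h0] using hh 0 1
  have h1 : v 1 = 0 := by simpa [h3, h0, h2] using hh 1 0
  ext i; fin_cases i <;> simp [h0, h1, h2, h3]

end Cfsg.Agent.CIT38.Sz
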