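import Cfsg.Agent.CIT38.Sz.Simple
import Cfsg.Agent.CIT38.Sz.Coef

/-!
The central involutions of a Suzuki group act quadratically on a fixed-point-free module.
-/

set_option autoImplicit false
set_option linter.unusedSectionVars false

namespace Cfsg.Agent.CIT38.Sz

open Suzuki Matrix

variable {F : Type*} [Field F] [Fintype F] {m : ℕ} [hS : SuzukiField F m]
variable {A : Type*} [AddCommGroup A] (ρ : Cfsg.Sz F m →* AddMonoid.End A)

/-- The difference operator of a central involution. -/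
noncomputable def nu (β : F) : A →+ A :=
  AddMonoidHom.mk' (fun a => ρ (gT 0 β) a - a) fun a b => by rw [map_add]; abel

theorem nu_apply (β : F) (a : A) : nu ρ β a = ρ (gT 0 β) a - a := rfl

theorem nu_add (β γ : F) (a : A) :
    nu ρ (β + γ) a = nu ρ β a + nu ρ γ a + nu ρ β (nu ρ γ a) := by
  rw [nu_apply, nu_apply, nu_apply, nu_apply, gZ_add, ρ_mul, map_sub]
  abel

theorem nu_comm (β γ : F) (a : A) : nu ρ β (nu ρ γ a) = nu ρ γ (nu ρ β a) := by
  simp only [nu_apply, map_sub]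
  rw [← ρ_mul, ← ρ_mul, gZ_comm_gT β 0 γ]
  abel

theorem nu_conj {g : Cfsg.Sz F m} {β β' : F} (h : g * gT 0 β = gT 0 β' * g) (a : A) :
    ρ g (nu ρ β a) = nu ρ β' (ρ g a) := by
  simp only [nu_apply, map_sub]
  rw [← ρ_mul, ← ρ_mul, h]

theorem nu_map {B : Type*} [AddCommGroup B] {σ : Cfsg.Sz F m →* AddMonoid.End B} (f : A →+ B)
    (hf : ∀ g a, f (ρ g a) = σ g (f a)) (β : F) (a : A) : f (nu ρ β a) = nu σ β (f a) := by
  rw [nu_apply, nu_apply, map_sub, hf]

theorem nu_nat (β : F) (v : Fin 4 → F) :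
    nu (nat F m) β v = ![β * v 2 + th F m β * v 3, β * v 3, 0, 0] := by
  rw [nu_apply, nat_gZ]
  ext i
  fin_cases i <;> simp <;> ring

/-- Quadratic action. -/
def IsQuad : Prop := ∀ β γ a, nu ρ β (nu ρ γ a) = 0

theorem isQuad_nat : IsQuad (nat F m) := fun β γ v => by
  rw [nu_nat, nu_nat]
  ext i
  fin_cases i <;> simp

variable {ρ}

/-- An element of exponent two fixed by the involution `gT 0 1` is a difference. -/
theorem exists_half (hf : IsFpf ρ) {u : A} (h2 : u + u = 0) (h1 : nu ρ 1 u = 0) :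
    u = nu ρ 1 (ρ (five F m) u + ρ (five F m ^ 2) u) := by
  set e : Cfsg.Sz F m := gT 0 1 with he
  have hu : ρ e u = u := sub_eq_zero.mp h1
  have hee : e * e = 1 := by rw [he, gT_sq, map_zero, zero_mul, gT_zero]
  have hf5 : five F m = gW F m * e := rfl
  have h5 : five F m ^ 4 * five F m = 1 := by rw [← pow_succ, five_pow]
  have hc : e * five F m = five F m ^ 4 * e := by
    rw [eq_inv_of_mul_eq_one_left h5, hf5, _root_.mul_inv_rev, gW_inv, inv_eq_of_mul_eq_one_right hee,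
      mul_assoc]
  have hc2 : e * five F m ^ 2 = five F m ^ 3 * e := by
    rw [pow_two, ← mul_assoc, hc, mul_assoc, hc, ← mul_assoc, ← pow_add,
      show 4 + 4 = 5 + 3 from rfl, pow_add, five_pow, one_mul]
  have hs := hf.sum_eq_zero (n := 5) (by decide) five_pow (five_ne_one (F := F) (m := m)) u
  simp only [Finset.sum_range_succ, Finset.sum_range_zero, zero_add, pow_zero, pow_one, ρ_one] at hs
  have hd : ∀ x, ρ x u + ρ x u = 0 := fun x => by rw [← map_add, h2, map_zero]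
  rw [nu_apply, map_add, ← he, ← ρ_mul, ← ρ_mul, hc, hc2, ρ_mul, ρ_mul, hu]
  rw [eq_comm, ← sub_eq_zero]
  calc _ = (u + ρ (five F m) u + ρ (five F m ^ 2) u + ρ (five F m ^ 3) u + ρ (five F m ^ 4) u)
        - (u + u) - (ρ (five F m) u + ρ (five F m) u)
        - (ρ (five F m ^ 2) u + ρ (five F m ^ 2) u) := by abel
    _ = 0 := by rw [hs, h2, hd, hd]; simp

variable (ρ)

/-- An extension of the natural module by a quadratic module, second differences in a natural
submodule. -/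
structure Layer where
  j : (Fin 4 → F) →+ A
  π : A →+ (Fin 4 → F)
  j_inj : Function.Injective j
  j_eq : ∀ g v, j (nat F m g v) = ρ g (j v)
  π_eq : ∀ g a, π (ρ g a) = nat F m g (π a)
  π_surj : Function.Surjective π
  π_j : ∀ v, π (j v) = 0
  exp : ∀ a, π a = 0 → a + a = 0
  quad : ∀ β γ a, π a = 0 → nu ρ β (nu ρ γ a) = 0
  mem : ∀ β γ a, ∃ v, nu ρ β (nu ρ γ a) = j v

variable {ρ} (L : Layer ρ)

theorem Layer.π_nu (β : F) (a : A) : L.π (nu ρ β a) = nu (nat F m) β (L.π a) :=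
  nu_map ρ L.π L.π_eq β a

theorem Layer.j_nu (β : F) (v : Fin 4 → F) : L.j (nu (nat F m) β v) = nu ρ β (L.j v) :=
  nu_map (nat F m) L.j L.j_eq β v

include L in
theorem Layer.kill (hf : IsFpf ρ) (β : F) {u : A} (hπ : L.π u = 0) (h1 : nu ρ 1 u = 0) :
    nu ρ β u = 0 := by
  rw [exists_half hf (L.exp u hπ) h1]
  refine L.quad β 1 _ ?_
  rw [map_add, L.π_eq, L.π_eq, hπ, map_zero, map_zero, add_zero]

/-- The second difference, read in the natural module. -/
noncomputable def Layer.T (β γ : F) (y : Fin 4 → F) : Fin 4 → F :=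
  Classical.choose (L.mem β γ (Classical.choose (L.π_surj y)))

theorem Layer.T_spec (β γ : F) (a : A) : L.j (L.T β γ (L.π a)) = nu ρ β (nu ρ γ a) := by
  rw [Layer.T, ← Classical.choose_spec (L.mem β γ _), ← sub_eq_zero, ← map_sub, ← map_sub]
  refine L.quad β γ _ ?_
  rw [map_sub, Classical.choose_spec (L.π_surj (L.π a)), sub_self]

theorem Layer.T_eq {β γ : F} {y : Fin 4 → F} {a : A} (ha : L.π a = y) {v : Fin 4 → F}
    (hv : nu ρ β (nu ρ γ a) = L.j v) : L.T β γ y = v :=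
  L.j_inj (by rw [← ha, L.T_spec, hv])

theorem Layer.T_comm (β γ : F) (y : Fin 4 → F) : L.T β γ y = L.T γ β y := by
  obtain ⟨a, rfl⟩ := L.π_surj y
  exact L.T_eq rfl (by rw [nu_comm, L.T_spec])

theorem Layer.T_add (β γ : F) (y z : Fin 4 → F) : L.T β γ (y + z) = L.T β γ y + L.T β γ z := by
  obtain ⟨a, rfl⟩ := L.π_surj y
  obtain ⟨b, rfl⟩ := L.π_surj z
  exact L.T_eq (map_add L.π a b) (by rw [map_add, map_add, map_add, L.T_spec, L.T_spec])

theorem Layer.T_nu (β γ δ : F) (y : Fin 4 → F) :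
    L.T β γ (nu (nat F m) δ y) = nu (nat F m) δ (L.T β γ y) := by
  obtain ⟨a, rfl⟩ := L.π_surj y
  refine L.T_eq (L.π_nu δ a) ?_
  rw [L.j_nu, L.T_spec, nu_comm ρ γ δ, nu_comm ρ β δ]

theorem Layer.T_conj {g : Cfsg.Sz F m} {β γ β' γ' : F} (hβ : g * gT 0 β = gT 0 β' * g)
    (hγ : g * gT 0 γ = gT 0 γ' * g) (y : Fin 4 → F) :
    L.T β' γ' (nat F m g y) = nat F m g (L.T β γ y) := by
  obtain ⟨a, rfl⟩ := L.π_surj y
  refine L.T_eq (L.π_eq g a) ?_
  rw [L.j_eq, L.T_spec, nu_conj ρ hβ, nu_conj ρ hγ]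

section Upper

variable (hf : IsFpf ρ) (hd : ∀ y, L.T 1 1 y 2 = 0 ∧ L.T 1 1 y 3 = 0)
include hf

/-- Reduction of the second difference to the parameter one. -/
theorem Layer.T_reduce (β γ : F) (y y' : Fin 4 → F)
    (hy : nu (nat F m) 1 y' = nu (nat F m) γ y) :
    (L.T 1 γ y - L.T 1 1 y') 2 = 0 ∧ (L.T 1 γ y - L.T 1 1 y') 3 = 0 ∧
      L.T β γ y = L.T β 1 y' + nu (nat F m) β ![0, 0,
        (L.T 1 γ y - L.T 1 1 y') 0 + (L.T 1 γ y - L.T 1 1 y') 1, (L.T 1 γ y - L.T 1 1 y') 1] := by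
  haveI : CharP F 2 := suzukiField_charP (m := m)
  obtain ⟨a, rfl⟩ := L.π_surj y
  obtain ⟨a', rfl⟩ := L.π_surj y'
  set u := nu ρ γ a - nu ρ 1 a' with hu
  set w := L.T 1 γ (L.π a) - L.T 1 1 (L.π a') with hw
  have hπu : L.π u = 0 := by rw [hu, map_sub, L.π_nu, L.π_nu, hy, sub_self]
  have h1 : nu ρ 1 u = L.j w := by rw [hu, hw, map_sub, map_sub, L.T_spec, L.T_spec]
  have hw0 : nu (nat F m) 1 w = 0 := L.j_inj (by
    rw [L.j_nu, ← h1, L.quad 1 1 u hπu, map_zero])
  rw [nu_nat] at hw0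
  have hw3 : w 3 = 0 := by simpa using congrFun hw0 1
  have hw2 : w 2 = 0 := by simpa [hw3] using congrFun hw0 0
  refine ⟨hw2, hw3, ?_⟩
  set v : Fin 4 → F := ![0, 0, w 0 + w 1, w 1] with hv
  have hv1 : nu (nat F m) 1 v = w := by
    rw [nu_nat]
    ext i
    fin_cases i <;> simp [hv, hw2, hw3, add_assoc, CharTwo.add_self_eq_zero]
  have hk := L.kill hf β (u := u - L.j v) (by rw [map_sub, hπu, L.π_j, sub_zero])
    (by rw [map_sub, h1, ← L.j_nu, hv1, sub_self])
  rw [map_sub, sub_eq_zero, hu, map_sub, sub_eq_iff_eq_add] at hk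
  refine L.T_eq rfl ?_
  rw [map_add, L.T_spec, L.j_nu, hk, add_comm]

include hd

theorem Layer.T_one_upper (γ : F) (y : Fin 4 → F) : L.T 1 γ y 2 = 0 ∧ L.T 1 γ y 3 = 0 := by
  set y' : Fin 4 → F := ![0, 0, γ * y 2 + th F m γ * y 3 + γ * y 3, γ * y 3] with hy'
  haveI : CharP F 2 := suzukiField_charP (m := m)
  obtain ⟨h2, h3, -⟩ := L.T_reduce hf 1 γ y y' (by
    rw [nu_nat, nu_nat]
    ext i
    fin_cases i <;> simp [hy', add_assoc, CharTwo.add_self_eq_zero])
  exact ⟨by simpa [(hd y').1] using h2, by simpa [(hd y').2] using h3⟩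

theorem Layer.T_upper (β γ : F) (y : Fin 4 → F) : L.T β γ y 2 = 0 ∧ L.T β γ y 3 = 0 := by
  set y' : Fin 4 → F := ![0, 0, γ * y 2 + th F m γ * y 3 + γ * y 3, γ * y 3] with hy'
  haveI : CharP F 2 := suzukiField_charP (m := m)
  obtain ⟨-, -, h⟩ := L.T_reduce hf β γ y y' (by
    rw [nu_nat, nu_nat]
    ext i
    fin_cases i <;> simp [hy', add_assoc, CharTwo.add_self_eq_zero])
  obtain ⟨h2, h3⟩ := L.T_one_upper hf hd β y'
  rw [h, L.T_comm β 1, nu_nat]
  exact ⟨by simp [h2], by simp [h3]⟩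

theorem Layer.T_addL (β β' γ : F) (y : Fin 4 → F) :
    L.T (β + β') γ y = L.T β γ y + L.T β' γ y := by
  obtain ⟨a, rfl⟩ := L.π_surj y
  refine L.T_eq rfl ?_
  rw [nu_add, map_add, L.T_spec, L.T_spec, ← L.T_spec β' γ, ← L.j_nu]
  obtain ⟨h2, h3⟩ := L.T_upper hf hd β' γ (L.π a)
  rw [show nu (nat F m) β (L.T β' γ (L.π a)) = 0 by
    rw [nu_nat, h2, h3]; ext i; fin_cases i <;> simp, map_zero, add_zero]

/-- The shape of the second difference. -/
theorem Layer.T_shape (β γ : F) (y : Fin 4 → F) :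
    L.T β γ y = ![y 2 * L.T β γ ![0, 0, 0, 1] 1 + L.T β γ ![0, 0, 0, y 3] 0,
      y 3 * L.T β γ ![0, 0, 0, 1] 1, 0, 0] := by
  haveI : CharP F 2 := suzukiField_charP (m := m)
  have htop : ∀ c d, L.T β γ ![c, d, 0, 0] = 0 := by
    intro c d
    rw [show (![c, d, 0, 0] : Fin 4 → F) = nu (nat F m) 1 ![0, 0, c + d, d] by
      rw [nu_nat]; ext i; fin_cases i <;> simp [add_assoc, CharTwo.add_self_eq_zero],
      L.T_nu, nu_nat]
    obtain ⟨h2, h3⟩ := L.T_upper hf hd β γ ![0, 0, c + d, d]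
    ext i
    fin_cases i <;> simp [h2, h3]
  have hsplit : ∀ z : Fin 4 → F, L.T β γ z = L.T β γ ![0, 0, z 2, 0] + L.T β γ ![0, 0, 0, z 3] := by
    intro z
    conv_lhs => rw [show z = ![z 0, z 1, 0, 0] + ![0, 0, z 2, 0] + ![0, 0, 0, z 3] by
      ext i; fin_cases i <;> simp]
    rw [L.T_add, L.T_add, htop, zero_add]
  have hkey : ∀ a x, L.T β γ ![0, 0, a * x, 0] = ![a * L.T β γ ![0, 0, 0, x] 1, 0, 0, 0] := by
    intro a x
    have h := L.T_conj (gZ_comm_gT β a 0).symm (gZ_comm_gT γ a 0).symm ![0, 0, 0, x]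
    obtain ⟨h2, h3⟩ := L.T_upper hf hd β γ ![0, 0, 0, x]
    rw [nat_gA, nat_gA, hsplit] at h
    ext i
    have hi := congrFun h i
    fin_cases i <;> simp [h2, h3] at hi ⊢
    · linear_combination hi
    · exact hi
    · exact hi
    · exact hi
  have h3 : ∀ x, L.T β γ ![0, 0, 0, x] 1 = x * L.T β γ ![0, 0, 0, 1] 1 := by
    intro x
    have e1 := congrFun (hkey x 1) 0
    have e2 := congrFun (hkey 1 x) 0
    rw [mul_one] at e1
    rw [one_mul] at e2
    simpa using e2.symm.trans e1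
  obtain ⟨u2, u3⟩ := L.T_upper hf hd β γ ![0, 0, 0, y 3]
  rw [hsplit, ← mul_one (y 2), hkey, mul_one]
  ext i
  fin_cases i <;> simp [u2, u3, h3 (y 3)]

/-- The scalar of the second difference. -/
noncomputable def Layer.tau (β γ : F) : F := L.T β γ ![0, 0, 0, 1] 1

/-- The off-diagonal part of the second difference. -/
noncomputable def Layer.off (β γ : F) : F →+ F :=
  AddMonoidHom.mk' (fun x => L.T β γ ![0, 0, 0, x] 0) fun x x' => by
    rw [show (![0, 0, 0, x + x'] : Fin 4 → F) = ![0, 0, 0, x] + ![0, 0, 0, x'] by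
      ext i; fin_cases i <;> simp, L.T_add]
    rfl

theorem Layer.tau_addL (β β' γ : F) : L.tau (β + β') γ = L.tau β γ + L.tau β' γ :=
  congrFun (L.T_addL hf hd β β' γ _) 1

theorem Layer.off_addL (β β' γ : F) (x : F) :
    L.off (β + β') γ x = L.off β γ x + L.off β' γ x :=
  congrFun (L.T_addL hf hd β β' γ _) 0

theorem Layer.tau_reduce (β γ : F) :
    L.tau β γ = γ * L.tau β 1 + β * (L.tau 1 γ - γ * L.tau 1 1) := by
  set w := L.T 1 γ ![0, 0, 1, 0] - L.T 1 1 ![0, 0, γ, 0]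
  obtain ⟨-, -, h⟩ := L.T_reduce hf β γ ![0, 0, 1, 0] ![0, 0, γ, 0] (by
    rw [nu_nat, nu_nat]; ext i; fin_cases i <;> simp)
  have h0 := congrFun h 0
  simp only [Pi.add_apply, Pi.sub_apply, nu_nat] at h0
  rw [L.T_shape hf hd β γ, L.T_shape hf hd β 1, L.T_shape hf hd 1 γ, L.T_shape hf hd 1 1] at h0
  have hz : ∀ b c, L.T b c (![0, 0, 0, 0] : Fin 4 → F) 0 = 0 := fun b c => by
    have h := (L.off b c).map_zero
    simpa [Layer.off] using h
  simpa [hz, Layer.tau] using h0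

end Upper

theorem exists_kappa {x : F} (hx : x ≠ 0) : ∃ l : Fˣ, th F m l ^ 2 * (l : F) ^ 2 = x := by
  classical
  let f : Fˣ →* Fˣ :=
    ({ toFun := fun l => th F m l ^ 2 * (l : F) ^ 2
       map_one' := by simp
       map_mul' := fun k l => by simp only [Units.val_mul, map_mul]; ring } : Fˣ →* F).toHomUnits
  have hf : Function.Injective f := by
    rw [← MonoidHom.ker_eq_bot_iff, Subgroup.eq_bot_iff_forall]
    intro l hl
    have : th F m (l : F) ^ 2 * (l : F) ^ 2 = 1 := congrArg Units.val (MonoidHom.mem_ker.mp hl)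
    rw [← mul_pow] at this
    exact Units.ext (th_mul_self_eq_one (sq_eq_one this))
  obtain ⟨l, hl⟩ := (Finite.injective_iff_surjective.mp hf) (Units.mk0 x hx)
  exact ⟨l, congrArg Units.val hl⟩

/-- Exponent four is impossible. -/
theorem Layer.false_of_double (hf : IsFpf ρ) (h : ∀ a, L.j (L.π a) = a + a) : False := by
  haveI : CharP F 2 := suzukiField_charP (m := m)
  have hdiag : ∀ β y, L.T β β y = nu (nat F m) β y := by
    intro β y
    obtain ⟨a, rfl⟩ := L.π_surj y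
    refine L.T_eq rfl ?_
    have hneg : ∀ v, L.j v = -L.j v := fun v => by
      rw [← map_neg, (nat_exp2 (m := m)).self_neg]
    rw [hneg, ← L.π_nu, h, nu_apply, nu_apply, map_sub, ← ρ_mul, gT_mul]
    simp only [CharTwo.add_self_eq_zero, map_zero, zero_mul, add_zero, gT_zero, ρ_one]
    abel
  have hd : ∀ y, L.T 1 1 y 2 = 0 ∧ L.T 1 1 y 3 = 0 := fun y => by
    rw [hdiag, nu_nat]; simp
  have ht : ∀ β, L.tau β β = β := fun β => by
    rw [Layer.tau, hdiag, nu_nat]; simp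
  obtain ⟨β, hβ0, hβ1⟩ := exists_ne_zero_ne_one (F := F) (m := m)
  have := L.tau_reduce hf hd β β
  rw [ht, ht, mul_one] at this
  have hc : L.tau β 1 = L.tau 1 β := congrFun (L.T_comm β 1 _) 1
  rw [hc] at this
  refine hβ1 (mul_left_cancel₀ hβ0 ?_)
  linear_combination this + (β * L.tau 1 β - β) * (CharTwo.two_eq_zero (R := F))

/-- In exponent two the second differences vanish. -/
theorem Layer.T_eq_zero (hf : IsFpf ρ) (h : ∀ a : A, a + a = 0) (β γ : F) (y : Fin 4 → F) :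
    L.T β γ y = 0 := by
  classical
  haveI : CharP F 2 := suzukiField_charP (m := m)
  have hdiag : ∀ β y, L.T β β y = 0 := by
    intro β y
    obtain ⟨a, rfl⟩ := L.π_surj y
    refine L.T_eq rfl ?_
    rw [map_zero, nu_apply, nu_apply, map_sub, ← ρ_mul, gT_mul]
    simp only [CharTwo.add_self_eq_zero, map_zero, zero_mul, add_zero, gT_zero, ρ_one]
    calc _ = (a + a) - (ρ (gT 0 β) a + ρ (gT 0 β) a) := by abel
      _ = 0 := by rw [h, h, sub_zero]
  have hd : ∀ y, L.T 1 1 y 2 = 0 ∧ L.T 1 1 y 3 = 0 := fun y => by rw [hdiag]; simp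
  -- the scalar
  set q : F →+ F := AddMonoidHom.mk' (fun b => L.tau b 1) fun b b' => L.tau_addL hf hd b b' 1
  have hτ : ∀ b c, L.tau b c = c * q b + b * q c := by
    intro b c
    have h11 : L.tau 1 1 = 0 := by rw [Layer.tau, hdiag]; rfl
    rw [L.tau_reduce hf hd, h11, mul_zero, sub_zero,
      show L.tau 1 c = L.tau c 1 from congrFun (L.T_comm 1 c _) 1]
    rfl
  have hconj : ∀ (l : Fˣ) (b : F), (gD l * gT 0 b : Cfsg.Sz F m) =
      gT 0 (th F m l ^ 2 * (l : F) ^ 2 * b) * gD l := fun l b => by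
    rw [gD_conj_gT, mul_zero]
  obtain ⟨a₀, ha0, ha1⟩ := exists_ne_zero_ne_one (F := F) (m := m)
  have hq : ∀ b, q b = 0 := by
    refine eq_zero_of_degree m (RingHom.id F) ha0 (fun e => ha1 ?_) q
      (by show L.tau 1 1 = 0; rw [Layer.tau, hdiag]; rfl) fun x b c hx => ?_
    · refine (mul_left_cancel₀ ha0 ?_).symm
      rw [mul_one, ← pow_two]
      exact e
    obtain ⟨l, rfl⟩ := exists_kappa (m := m) hx
    rw [← hτ, RingHom.id_apply, ← hτ]
    have h1 := congrFun (L.T_conj (hconj l b) (hconj l c) ![0, 0, 0, 1]) 1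
    rw [L.T_shape hf hd, L.T_shape hf hd b c] at h1
    have h1' : (th F m (l : F) * (l : F) ^ 2)⁻¹ *
        L.tau (th F m (l : F) ^ 2 * (l : F) ^ 2 * b) (th F m (l : F) ^ 2 * (l : F) ^ 2 * c) =
        th F m (l : F) * L.tau b c := by
      simpa [nat_gD, Layer.tau] using h1
    rw [inv_mul_eq_iff_eq_mul₀ (by simp [l.ne_zero])] at h1'
    rw [h1']
    ring
  -- the off-diagonal part
  have hoff : ∀ b c x, L.off b c x = L.off b 1 (c * x) + b * L.off c 1 x := by
    intro b c x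
    obtain ⟨-, -, h⟩ := L.T_reduce hf b c ![0, 0, 0, x] ![0, 0, th F m c * x + c * x, c * x] (by
      rw [nu_nat, nu_nat]; ext i; fin_cases i <;> simp [add_assoc, CharTwo.add_self_eq_zero])
    have h0 := congrFun h 0
    simp only [Pi.add_apply, Pi.sub_apply, hdiag, Pi.zero_apply, sub_zero, nu_nat] at h0
    rw [L.T_comm 1 c] at h0
    have h1 : L.T c 1 ![0, 0, 0, x] 1 = 0 := by
      rw [L.T_shape hf hd]
      show x * L.tau c 1 = 0
      rw [show L.tau c 1 = q c from rfl, hq, mul_zero]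
    rw [L.T_shape hf hd b 1] at h0
    simpa [Layer.off, h1, show L.T b 1 ![0, 0, 0, 1] 1 = 0 from hq b] using h0
  have hQ : ∀ b i, i < 2 * m + 1 → coef i (L.off b 1) = 0 := by
    intro b i hi
    let qi : F →+ F := AddMonoidHom.mk' (fun b => coef i (L.off b 1)) fun b b' => by
      rw [← coef_add]
      exact congrArg (coef i) (funext fun x => L.off_addL hf hd b b' 1 x)
    have hcoef : ∀ b c, coef i (L.off b c) = c ^ 2 ^ i * qi b + b * qi c := by
      intro b c
      rw [show (L.off b c : F → F) = fun x => L.off b 1 (c * x) + b * L.off c 1 x from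
        funext (hoff b c), coef_add, coef_mul_left, coef_mul_right i c _ (map_zero _)]
      rfl
    have hz : ∀ b, coef i (L.off b b) = 0 := fun b => by
      rw [show (L.off b b : F → F) = fun x => 0 from funext fun x => congrFun (hdiag b _) 0]
      simp [coef]
    show qi b = 0
    rcases eq_or_ne i 0 with rfl | hi0
    · simp only [pow_zero, pow_one] at hcoef
      refine eq_zero_of_degree m (th F m) ha0 (fun e => ha1 ?_) qi ?_ (fun x b c hx => ?_) b
      · have h2 := congrArg (th F m) e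
        rw [th_th, map_pow, e] at h2
        refine (mul_left_cancel₀ ha0 ?_).symm
        rw [mul_one, ← pow_two]
        refine sq_injective ?_
        exact h2
      · show coef 0 (L.off 1 1) = 0
        exact hz 1
      obtain ⟨l, rfl⟩ := exists_kappa (m := m) hx
      rw [← hcoef, ← hcoef]
      set κ := th F m (l : F) ^ 2 * (l : F) ^ 2 with hκ
      set d₀ := th F m (l : F) * (l : F) ^ 2 with hd₀
      have hd0 : d₀ ≠ 0 := by simp [hd₀, l.ne_zero]
      have hscale : ∀ x, L.off (κ * b) (κ * c) (d₀⁻¹ * x) = d₀ * L.off b c x := by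
        intro x
        have h1 := congrFun (L.T_conj (hconj l b) (hconj l c) ![0, 0, 0, x]) 0
        simpa [nat_gD, Layer.off, hκ, hd₀] using h1
      have h2 := congrArg (coef 0) (funext hscale)
      rw [coef_mul_right 0 _ _ (map_zero _), coef_mul_left, pow_zero, pow_one,
        inv_mul_eq_iff_eq_mul₀ hd0] at h2
      rw [h2, ← mul_assoc]
      congr 1
      rw [hκ, hd₀, map_mul, map_pow, map_pow, th_th]
      ring
    · obtain ⟨a, ha⟩ := exists_pow_ne (F := F) hi0 hi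
      haveI : ExpChar F 2 := ExpChar.prime Nat.prime_two
      refine eq_zero_of_off_fixed (iterateFrobenius F 2 i) (a := a)
        (by rwa [iterateFrobenius_def]) qi (fun x hx => ?_) b
      rw [iterateFrobenius_def] at hx
      have h1 := hcoef x x
      rw [hz, ← add_mul] at h1
      exact (mul_eq_zero.mp h1.symm).resolve_left fun e => hx (CharTwo.add_eq_zero.mp e)
  have hQ0 : ∀ b x, L.off b 1 x = 0 := fun b x =>
    DFunLike.congr_fun (eq_zero_of_coef (m := m) _ (hQ b)) x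
  rw [L.T_shape hf hd]
  have e1 : L.T β γ ![0, 0, 0, 1] 1 = 0 := by
    show L.tau β γ = 0
    rw [hτ, hq, hq, mul_zero, mul_zero, add_zero]
  have e2 : L.T β γ ![0, 0, 0, y 3] 0 = 0 := by
    show L.off β γ (y 3) = 0
    rw [hoff, hQ0, hQ0, mul_zero, add_zero]
  ext i
  fin_cases i <;> simp [e1, e2]

end Cfsg.Agent.CIT38.Sz
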