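import Cfsg.Agent.CIT38.Sz.Nat
import Mathlib.LinearAlgebra.Dual.Lemmas
import Mathlib.FieldTheory.Finite.Basic

/-!
Every simple fixed-point-free module of a Suzuki group over the field of two elements is natural.
-/

set_option autoImplicit false
set_option linter.unusedSectionVars false

namespace Cfsg.Agent.CIT38.Sz

open Suzuki Matrix

variable {F : Type*} [Field F] [Fintype F] {m : ℕ} [hS : SuzukiField F m]

variable (F m) in
/-- An element of order five over the prime field. -/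
noncomputable def five : Cfsg.Sz F m := gW F m * gT 0 1

theorem nat_five (v : Fin 4 → F) :
    nat F m (five F m) v = ![v 3, v 2, v 1 + v 3, v 0 + v 2 + v 3] := by
  rw [five, ρ_mul, nat_gW, nat_gZ]
  simp

theorem nat_injective {g h : Cfsg.Sz F m} (e : ∀ v, nat F m g v = nat F m h v) : g = h :=
  sz_ext (Matrix.ext_of_mulVec_single fun j => e (Pi.single j 1))

theorem five_pow : five F m ^ 5 = 1 := by
  refine nat_injective fun v => ?_
  simp only [pow_succ, pow_zero, one_mul, ρ_mul, ρ_one, nat_five]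
  ext i
  fin_cases i <;> simp <;> grind

theorem five_ne_one : five F m ≠ 1 := fun e => by
  have h := congrFun (nat_five (F := F) (m := m) ![1, 0, 0, 0]) 3
  rw [e, ρ_one] at h
  simp at h

variable (F m) in
/-- The bottom coefficient of the image of the fixed line. -/
noncomputable def mu (g : Cfsg.Sz F m) : F := nat F m g ![1, 0, 0, 0] 3

theorem mu_gT_mul (a b : F) (g : Cfsg.Sz F m) : mu F m (gT a b * g) = mu F m g := by
  rw [mu, mu, ρ_mul, nat_gT]; rfl

theorem mu_mul_gT (g : Cfsg.Sz F m) (a b : F) : mu F m (g * gT a b) = mu F m g := by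
  have e : nat F m (gT a b) ![1, 0, 0, 0] = ![1, 0, 0, 0] := by
    rw [nat_gT]; ext i; fin_cases i <;> simp
  rw [mu, mu, ρ_mul, e]

theorem mu_gD_mul (l : Fˣ) (g : Cfsg.Sz F m) :
    mu F m (gD l * g) = (wt F m l)⁻¹ * mu F m g := by
  rw [mu, mu, ρ_mul, nat_gD]; rfl

theorem mu_one : mu F m 1 = 0 := by rw [mu, ρ_one]; rfl

theorem mu_gW : mu F m (gW F m) = 1 := by rw [mu, nat_gW]; rfl

section Functional

variable {W : Type*} [AddCommGroup W] [Finite W] (h2 : Exp2 W) (ρ : Cfsg.Sz F m →* AddMonoid.End W)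

include h2 in
/-- A functional invariant under the unipotent subgroup. -/
theorem exists_invariant [Nontrivial W] :
    ∃ f : W →+ F, f ≠ 0 ∧ ∀ a b w, f (ρ (gT a b) w) = f w := by
  classical
  haveI : CharP F 2 := suzukiField_charP (m := m)
  haveI : Fact (Nat.Prime 2) := ⟨Nat.prime_two⟩
  letI : Module (ZMod 2) W := AddCommGroup.zmodModule h2.nsmul
  obtain ⟨w, hw⟩ := exists_ne (0 : W)
  obtain ⟨φ, hφ⟩ : ∃ φ : Module.Dual (ZMod 2) W, φ w ≠ 0 := by
    by_contra hc
    push Not at hc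
    exact hw ((Module.forall_dual_apply_eq_zero_iff (ZMod 2) w).mp hc)
  set f₀ : W →+ F := (ZMod.castHom (dvd_refl 2) F).toAddMonoidHom.comp φ.toAddMonoidHom
  have hf₀ : f₀ ≠ 0 := fun e => hφ ((ZMod.castHom (dvd_refl 2) F).injective
    ((DFunLike.congr_fun e w).trans (map_zero _).symm))
  have hE : Exp2 (W →+ F) := fun f => AddMonoidHom.ext fun x => CharTwo.add_self_eq_zero (f x)
  haveI : Finite (W →+ F) := DFunLike.finite _
  letI : MulAction (U F m) (W →+ F) :=
    { smul := fun g f => f.comp (ρ ((g⁻¹ : U F m) : Cfsg.Sz F m))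
      one_smul := fun f => AddMonoidHom.ext fun x =>
        congrArg f ((congrArg (fun z : Cfsg.Sz F m => ρ z x) (by rw [inv_one]; rfl)).trans (ρ_one ρ x))
      mul_smul := fun g h f => AddMonoidHom.ext fun x =>
        congrArg f ((congrArg (fun z : Cfsg.Sz F m => ρ z x) (by rw [_root_.mul_inv_rev]; rfl)).trans (ρ_mul ρ _ _ x)) }
  have hd : 2 ∣ Nat.card (W →+ F) :=
    addOrderOf_eq_prime (hE.nsmul f₀) hf₀ ▸ addOrderOf_dvd_natCard f₀
  obtain ⟨f, hf, hne⟩ := (isPGroup_U (F := F) (m := m)).exists_fixed_point_of_prime_dvd_card_of_fixed_point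
    (W →+ F) hd (a := (0 : W →+ F)) (by intro g; exact AddMonoidHom.ext fun x => rfl)
  refine ⟨f, fun e => hne e.symm, fun a b x => ?_⟩
  have h1 := DFunLike.congr_fun (hf (⟨gT a b, gT_mem_unip a b⟩ : U F m)⁻¹) x
  have h2 : f (ρ ((((⟨gT a b, gT_mem_unip a b⟩ : U F m)⁻¹)⁻¹ : U F m) : Cfsg.Sz F m) x) = f x := h1
  rwa [inv_inv] at h2

include h2 in
/-- An eigenfunctional for the Borel subgroup. -/
theorem exists_eigen [Nontrivial W] :
    ∃ (f : W →+ F) (N : ℕ), f ≠ 0 ∧ 0 < N ∧ (∀ a b w, f (ρ (gT a b) w) = f w) ∧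
      ∀ l w, f (ρ (gD l) w) = (wt F m l)⁻¹ ^ N * f w := by
  classical
  haveI : CharP F 2 := suzukiField_charP (m := m)
  obtain ⟨f₁, hf₁, hinv⟩ := exists_invariant h2 ρ
  obtain ⟨w₁, hw₁⟩ : ∃ w, f₁ w ≠ 0 := by
    by_contra hc; push Not at hc; exact hf₁ (AddMonoidHom.ext hc)
  obtain ⟨g₀, hg₀⟩ := IsCyclic.exists_generator (α := Fˣ)
  set r := Fintype.card F - 1 with hr
  have hr0 : 0 < r := by have := Fintype.one_lt_card (α := F); omega
  have hgr : g₀ ^ r = 1 := by rw [hr, ← Fintype.card_units]; exact pow_card_eq_one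
  set tt : Cfsg.Sz F m := gD g₀ with htt
  have http : ∀ j : ℕ, tt ^ j = gD (g₀ ^ j) := fun j => (map_pow (gDHom F m) g₀ j).symm
  let fc : Fˣ → W →+ F := fun c => AddMonoidHom.mk'
    (fun w => ∑ j ∈ Finset.range r, ((c : F) ^ j) * f₁ (ρ (tt ^ j) w)) fun x y => by
      simp only [map_add, mul_add, Finset.sum_add_distrib]
  have hsum : ∑ c : Fˣ, fc c w₁ = f₁ w₁ := by
    show ∑ c : Fˣ, ∑ j ∈ Finset.range r, ((c : F) ^ j) * f₁ (ρ (tt ^ j) w₁) = _
    rw [Finset.sum_comm, Finset.sum_eq_single 0]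
    · rw [← Finset.sum_mul, pow_zero, ρ_one]
      have := FiniteField.sum_pow_units F 0
      simp only [dvd_zero, if_true] at this
      rw [this, neg_mul, one_mul, CharTwo.neg_eq]
    · intro j hj hj0
      rw [← Finset.sum_mul, FiniteField.sum_pow_units, if_neg, zero_mul]
      exact fun hd => hj0 (Nat.eq_zero_of_dvd_of_lt hd (Finset.mem_range.mp hj))
    · exact fun h => absurd (Finset.mem_range.mpr hr0) h
  obtain ⟨c, hc⟩ : ∃ c : Fˣ, fc c ≠ 0 := by
    by_contra hall; push Not at hall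
    exact hw₁ (by rw [← hsum]; simp [hall])
  set f := fc c with hfdef
  have hshift : ∀ w, f (ρ tt w) = (c : F)⁻¹ * f w := by
    intro w
    rw [eq_inv_mul_iff_mul_eq₀ c.ne_zero]
    show (c : F) * ∑ j ∈ Finset.range r, ((c : F) ^ j) * f₁ (ρ (tt ^ j) (ρ tt w)) =
      ∑ j ∈ Finset.range r, ((c : F) ^ j) * f₁ (ρ (tt ^ j) w)
    rw [Finset.mul_sum]
    set a := fun j => ((c : F) ^ j) * f₁ (ρ (tt ^ j) w)
    have h1 : ∀ j, (c : F) * (((c : F) ^ j) * f₁ (ρ (tt ^ j) (ρ tt w))) = a (j + 1) := fun j => by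
      rw [← ρ_mul, ← pow_succ, ← mul_assoc, ← pow_succ']
    simp only [h1]
    have e := Finset.sum_range_succ a r
    rw [Finset.sum_range_succ' a r] at e
    have hc' : (c : F) ^ r = 1 := by
      rw [hr]; exact FiniteField.pow_card_sub_one_eq_one _ c.ne_zero
    have har : a r = a 0 := by
      simp only [a, hc', http, hgr, pow_zero]
    exact add_right_cancel (e.trans (by rw [har]))
  have hD' : ∀ (l : Fˣ) (a b : F) w, f₁ (ρ (gD l) (ρ (gT a b) w)) = f₁ (ρ (gD l) w) := by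
    intro l a b w
    rw [← ρ_mul, gD_conj_gT, ρ_mul, hinv]
  set ψ : Fˣ →* Fˣ := (wt F m).toHomUnits⁻¹ with hψ
  have hψv : ∀ l, (ψ l : F) = (wt F m l)⁻¹ := fun l => by
    rw [hψ, MonoidHom.inv_apply, Units.val_inv_eq_inv_val]; rfl
  have hψi : Function.Surjective ψ := by
    intro x
    obtain ⟨l, hl⟩ := exists_wt_eq (m := m) (x := ((x⁻¹ : Fˣ) : F)) (Units.ne_zero _)
    exact ⟨l, Units.ext (by rw [hψv, hl, Units.val_inv_eq_inv_val, inv_inv])⟩
  obtain ⟨y, hy⟩ := hψi c⁻¹
  obtain ⟨k, hk⟩ := mem_powers_iff_mem_zpowers.mpr (hg₀ y)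
  have hbase : (c : F)⁻¹ = (wt F m g₀)⁻¹ ^ (k + r) := by
    rw [← hψv, ← Units.val_pow_eq_pow_val, ← map_pow, ← Units.val_inv_eq_inv_val, ← hy,
      pow_add, hgr, mul_one]
    exact congrArg _ (congrArg ψ hk.symm)
  refine ⟨f, k + r, hc, by omega, fun a b w => ?_, fun l w => ?_⟩
  · show ∑ j ∈ Finset.range r, ((c : F) ^ j) * f₁ (ρ (tt ^ j) (ρ (gT a b) w)) = _
    exact Finset.sum_congr rfl fun j _ => by rw [http, hD']
  obtain ⟨i, hi⟩ := mem_powers_iff_mem_zpowers.mpr (hg₀ l)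
  subst hi
  show f (ρ (gD (g₀ ^ i)) w) = (wt F m (g₀ ^ i))⁻¹ ^ (k + r) * f w
  rw [← http, map_pow (wt F m), ← inv_pow, ← pow_mul, mul_comm i, pow_mul, ← hbase]
  clear hsum
  induction i generalizing w with
  | zero => rw [pow_zero, pow_zero, ρ_one, one_mul]
  | succ i ih =>
    rw [pow_succ, ρ_mul, ih, hshift, pow_succ]
    ring

end Functional

section Classify

variable {W : Type*} [AddCommGroup W] [Finite W] {ρ : Cfsg.Sz F m →* AddMonoid.End W}

/-- The simple fixed-point-free modules are natural. -/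
theorem exists_natural_iso [Nontrivial W] (hf : IsFpf ρ) (h2 : Exp2 W)
    (hsimp : ∀ V : AddSubgroup W, Invar ρ V → V = ⊥ ∨ V = ⊤) :
    ∃ e : W ≃+ (Fin 4 → F), ∀ g w, e (ρ g w) = nat F m g (e w) := by
  classical
  haveI : CharP F 2 := suzukiField_charP (m := m)
  obtain ⟨f, N, hf0, hN, hfT, hfD⟩ := exists_eigen h2 ρ
  -- vectors killed by the orbit functionals
  have horb : ∀ w, (∀ g, f (ρ g w) = 0) → w = 0 := by
    intro w hw
    let K : AddSubgroup W :=
      { carrier := {w | ∀ g, f (ρ g w) = 0}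
        zero_mem' := fun g => by rw [map_zero, map_zero]
        add_mem' := fun {x y} hx hy g => by rw [map_add, map_add, hx g, hy g, add_zero]
        neg_mem' := fun {x} hx g => by rw [map_neg, map_neg, hx g, neg_zero] }
    have hK : Invar ρ K := fun x a ha g => by
      show f (ρ g (ρ x a)) = 0
      rw [← ρ_mul]; exact ha _
    rcases hsimp K hK with e | e
    · exact AddSubgroup.mem_bot.mp (e ▸ (hw : w ∈ K))
    · refine absurd (AddMonoidHom.ext fun x => ?_) hf0
      have hx : x ∈ K := e ▸ AddSubgroup.mem_top x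
      simpa [ρ_one] using hx 1
  obtain ⟨w₀, hw₀, hfix⟩ := exists_fixed h2 ρ
  set b := f (ρ (gW F m) w₀) with hb
  have hbig : ∀ g, (mu F m g = 0 ∧ ∃ l : Fˣ, f (ρ g w₀) = (wt F m l)⁻¹ ^ N * f w₀) ∨
      (mu F m g ≠ 0 ∧ f (ρ g w₀) = mu F m g ^ N * b) := by
    intro g
    rcases bruhat g with ⟨a, c, l, rfl⟩ | ⟨a, c, x, y, l, rfl⟩
    · refine Or.inl ⟨?_, l, ?_⟩
      · rw [mu_gT_mul, ← mul_one (gD l : Cfsg.Sz F m), mu_gD_mul, mu_one, mul_zero]
      · rw [ρ_mul, hfT, hfD]
    · refine Or.inr ?_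
      obtain ⟨x', y', hxy⟩ : ∃ x' y', (gT x y * gD l : Cfsg.Sz F m) = gD l * gT x' y' := by
        refine ⟨x / (l : F) ^ 2, y / (th F m l ^ 2 * (l : F) ^ 2), ?_⟩
        have h0 : th F m (l : F) ≠ 0 := by simp [l.ne_zero]
        rw [gD_conj_gT, mul_div_cancel₀ x (pow_ne_zero 2 l.ne_zero),
          mul_div_cancel₀ y (mul_ne_zero (pow_ne_zero 2 h0) (pow_ne_zero 2 l.ne_zero))]
      have e : gT a c * gW F m * (gT x y * gD l) = gT a c * (gD l⁻¹ * (gW F m * gT x' y')) := by
        rw [hxy, mul_assoc, ← mul_assoc (gW F m), gW_mul_gD, mul_assoc]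
      rw [e, mu_gT_mul, mu_gD_mul, mu_mul_gT, mu_gW, mul_one, ρ_mul, hfT, ρ_mul, hfD, ρ_mul, hfix]
      exact ⟨inv_ne_zero (wt_ne_zero _), rfl⟩
  have hu := hf.sum_eq_zero (n := 5) (by decide) five_pow (five_ne_one (F := F) (m := m))
  have hrel : ∀ g, ∑ i ∈ Finset.range 5, f (ρ (g * five F m ^ i) w₀) = 0 := by
    intro g
    simp only [ρ_mul, ← map_sum, hu w₀, map_zero]
  have hmu : ∀ g i, mu F m (g * five F m ^ i) =
      nat F m g (nat F m (five F m ^ i) ![1, 0, 0, 0]) 3 := fun g i => by rw [mu, ρ_mul]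
  -- the value on the small cell vanishes
  have ha : f w₀ = 0 := by
    have h1 := hrel 1
    simp only [Finset.sum_range_succ, Finset.sum_range_zero, zero_add, one_mul] at h1
    have hone : ∀ i, mu F m (five F m ^ i) = 1 → f (ρ (five F m ^ i) w₀) = b := by
      intro i hi
      rcases hbig (five F m ^ i) with ⟨h0, -⟩ | ⟨-, h⟩
      · rw [hi] at h0; exact absurd h0 one_ne_zero
      · rw [h, hi, one_pow, one_mul]
    rw [hone 1, hone 2, hone 3, hone 4, pow_zero, ρ_one] at h1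
    · have := CharTwo.add_self_eq_zero b
      linear_combination h1 - (2 : F) * this
    all_goals (rw [mu]; simp only [pow_succ, pow_zero, one_mul, ρ_mul, nat_five]; simp [CharTwo.add_self_eq_zero])
  have hF0 : ∀ g, f (ρ g w₀) = mu F m g ^ N * b := by
    intro g
    rcases hbig g with ⟨h0, l, h⟩ | ⟨-, h⟩
    · rw [h, ha, h0, mul_zero, zero_pow hN.ne', zero_mul]
    · exact h
  have hb0 : b ≠ 0 := fun e => hw₀ (horb w₀ fun g => by rw [hF0, e, mul_zero])
  -- the exponent is additive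
  have hadd1 : ∀ z : F, (1 + z) ^ N = 1 + z ^ N := by
    intro z
    obtain ⟨y, rfl⟩ := (th_bijective (F := F) (m := m)).2 z
    have h1 := hrel (gW F m * gT 0 y)
    simp only [Finset.sum_range_succ, Finset.sum_range_zero, zero_add, hF0, hmu] at h1
    simp only [pow_succ, pow_zero, one_mul, ρ_mul, ρ_one, nat_five, nat_gW, nat_gZ] at h1
    simp [CharTwo.add_self_eq_zero, hb0, ← add_mul] at h1
    grind
  have hNadd : ∀ x y : F, (x + y) ^ N = x ^ N + y ^ N := by
    intro x y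
    rcases eq_or_ne x 0 with rfl | hx
    · rw [zero_add, zero_pow hN.ne', zero_add]
    · rw [show x + y = x * (1 + y / x) by field_simp, mul_pow, hadd1, div_pow, mul_add,
        mul_one, mul_div_cancel₀ _ (pow_ne_zero N hx)]
  let φ : F →+* F :=
    { toFun := fun x => x ^ N, map_one' := one_pow N, map_mul' := fun x y => mul_pow x y N
      map_zero' := zero_pow hN.ne', map_add' := hNadd }
  let ψ : F ≃+* F := RingEquiv.ofBijective φ
    ⟨φ.injective, Finite.injective_iff_surjective.mp φ.injective⟩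
  set f' : W →+ F := ψ.symm.toAddEquiv.toAddMonoidHom.comp f with hf'
  have hf'w : ∀ w, f' w = ψ.symm (f w) := fun w => rfl
  -- the orbit functions are those of natural vectors
  have key : ∀ w, ∃ v : Fin 4 → F, ∀ g, f' (ρ g w) = nat F m g v 3 := by
    let K : AddSubgroup W :=
      { carrier := {w | ∃ v : Fin 4 → F, ∀ g, f' (ρ g w) = nat F m g v 3}
        zero_mem' := ⟨0, fun g => by rw [map_zero, map_zero, map_zero]; rfl⟩
        add_mem' := fun {x y} ⟨v, hv⟩ ⟨v', hv'⟩ => ⟨v + v', fun g => by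
          rw [map_add, map_add, hv, hv', map_add]; rfl⟩
        neg_mem' := fun {x} ⟨v, hv⟩ => ⟨-v, fun g => by rw [map_neg, map_neg, hv, map_neg]; rfl⟩ }
    have hK : Invar ρ K := by
      rintro x a ⟨v, hv⟩
      exact ⟨nat F m x v, fun g => by rw [← ρ_mul, hv, ρ_mul]⟩
    have hw₀K : w₀ ∈ K := ⟨![ψ.symm b, 0, 0, 0], fun g => by
      rw [hf'w, hF0, map_mul, show mu F m g ^ N = ψ (mu F m g) from rfl, RingEquiv.symm_apply_apply,
        mu, nat_apply, nat_apply]
      simp [Matrix.mulVec, dotProduct, Fin.sum_univ_four]⟩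
    rcases hsimp K hK with e | e
    · exact absurd (AddSubgroup.mem_bot.mp (e ▸ hw₀K)) hw₀
    · exact fun w => (e.symm ▸ AddSubgroup.mem_top w : w ∈ K)
  choose ι hι using key
  have huniq : ∀ w v, (∀ g, f' (ρ g w) = nat F m g v 3) → ι w = v := fun w v hv => by
    refine sub_eq_zero.mp (coord_three_eq_zero fun g => ?_)
    rw [map_sub]
    show nat F m g (ι w) 3 - nat F m g v 3 = 0
    rw [← hι, ← hv, sub_self]
  let ιh : W →+ (Fin 4 → F) := AddMonoidHom.mk' ι fun x y => huniq _ _ fun g => by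
    rw [map_add, map_add, hι, hι, map_add]; rfl
  have hequiv : ∀ g w, ιh (ρ g w) = nat F m g (ιh w) := fun g w =>
    huniq _ _ fun g' => by rw [← ρ_mul, hι, ρ_mul]; rfl
  have hinj : Function.Injective ιh := (injective_iff_map_eq_zero ιh).mpr fun w hw =>
    horb w fun g => by
      have := hι w g
      rw [show ι w = 0 from hw, map_zero, hf'w] at this
      exact ψ.symm.map_eq_zero_iff.mp this
  have hsurj : Function.Surjective ιh := by
    rw [← AddMonoidHom.range_eq_top]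
    refine invariant_eq_top (m := m) ?_ fun e => hw₀ (hinj ?_)
    · rintro g _ ⟨w, rfl⟩
      exact ⟨ρ g w, hequiv g w⟩
    · rw [map_zero]
      exact AddSubgroup.mem_bot.mp (e ▸ AddMonoidHom.mem_range.mpr ⟨w₀, rfl⟩)
  exact ⟨AddEquiv.ofBijective ιh ⟨hinj, hsurj⟩, fun g w => hequiv g w⟩

end Classify

end Cfsg.Agent.CIT38.Sz
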