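import Cfsg.Agent.CIT38.Sz.Quad
import Cfsg.Agent.CIT38.Sz.Bilin

/-!
Suzuki groups admit neither pairings nor exponent four.
-/

set_option autoImplicit false
set_option linter.unusedSectionVars false

universe u

namespace Cfsg.Agent.CIT38.Sz

open Suzuki

variable {F : Type*} [Field F] [Fintype F] {m : ℕ} [hS : SuzukiField F m]

theorem comap_invar {A B : Type*} [AddCommGroup A] [AddCommGroup B]
    {ρ : Cfsg.Sz F m →* AddMonoid.End A} {σ : Cfsg.Sz F m →* AddMonoid.End B} (f : A →+ B)
    (hf : ∀ g a, f (ρ g a) = σ g (f a)) {V : AddSubgroup B} (hV : Invar σ V) :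
    Invar ρ (V.comap f) := fun g a ha => by
  show f (ρ g a) ∈ V
  rw [hf]; exact hV g _ ha

theorem map_invar {A B : Type*} [AddCommGroup A] [AddCommGroup B]
    {ρ : Cfsg.Sz F m →* AddMonoid.End A} {σ : Cfsg.Sz F m →* AddMonoid.End B} (f : A →+ B)
    (hf : ∀ g a, f (ρ g a) = σ g (f a)) {V : AddSubgroup A} (hV : Invar ρ V) :
    Invar σ (V.map f) := by
  rintro g _ ⟨a, ha, rfl⟩
  exact ⟨ρ g a, hV g a ha, hf g a⟩

theorem two_pow_nsmul {A : Type*} [AddCommGroup A] (h : Exp2 A) (a : A) : ∃ k : ℕ, 2 ^ k • a = 0 :=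
  ⟨1, h.nsmul a⟩

theorem exp2_quot {A : Type*} [AddCommGroup A] (h : Exp2 A) (U : AddSubgroup A) : Exp2 (A ⧸ U) := by
  intro q
  obtain ⟨a, rfl⟩ := QuotientAddGroup.mk_surjective q
  rw [← QuotientAddGroup.mk_add, h]; rfl

theorem exp2_sub {A : Type*} [AddCommGroup A] (h : Exp2 A) (U : AddSubgroup A) : Exp2 U :=
  fun a => Subtype.ext (h a)

theorem card_quot_lt {A : Type*} [AddCommGroup A] [Finite A] {U : AddSubgroup A} (h : U ≠ ⊥) :
    Nat.card (A ⧸ U) < Nat.card A := by
  rw [U.card_eq_card_quotient_mul_card_addSubgroup]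
  refine lt_mul_of_one_lt_right Nat.card_pos ?_
  exact AddSubgroup.one_lt_card_iff_ne_bot U |>.mpr h

theorem card_sub_lt {A : Type*} [AddCommGroup A] [Finite A] {U : AddSubgroup A} (h : U ≠ ⊤) :
    Nat.card U < Nat.card A := by
  refine lt_of_le_of_ne (U.card_le_card_addGroup) fun e => h ?_
  exact AddSubgroup.eq_top_of_card_eq U e

/-- Every fixed-point-free module of exponent two is quadratic. -/
theorem isQuad_of_fpf : ∀ (n : ℕ) (A : Type u) [AddCommGroup A] [Finite A]
    (ρ : Cfsg.Sz F m →* AddMonoid.End A), Nat.card A = n → IsFpf ρ → Exp2 A → IsQuad ρ := by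
  intro n
  induction n using Nat.strong_induction_on with
  | _ n ih =>
    intro A _ _ ρ hn hf h2
    subst hn
    rcases subsingleton_or_nontrivial A with hA | hA
    · exact fun _ _ _ => Subsingleton.elim _ _
    by_cases hs : ∀ V : AddSubgroup A, Invar ρ V → V = ⊥ ∨ V = ⊤
    · obtain ⟨e, he⟩ := exists_natural_iso hf h2 hs
      intro β γ a
      refine e.injective ?_
      rw [map_zero, show e (nu ρ β (nu ρ γ a)) = _ from nu_map ρ e.toAddMonoidHom he β _,
        show e.toAddMonoidHom (nu ρ γ a) = _ from nu_map ρ e.toAddMonoidHom he γ _]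
      exact isQuad_nat β γ _
    push Not at hs
    obtain ⟨V₀, hV₀, hb₀, ht₀⟩ := hs
    obtain ⟨B, ⟨hB, hBb⟩, hBmin⟩ := (Set.toFinite {V : AddSubgroup A | Invar ρ V ∧ V ≠ ⊥}).exists_le_minimal
      (a := V₀) ⟨hV₀, hb₀⟩ |>.imp fun _ h => h.2
    have hBt : B ≠ ⊤ := by
      intro e
      exact ht₀ (e ▸ (hBmin ⟨hV₀, hb₀⟩ (e ▸ le_top)) |> top_le_iff.mp)
    obtain ⟨U, hBU, ⟨hU, hUt⟩, hUmax⟩ := (Set.toFinite {V : AddSubgroup A | Invar ρ V ∧ V ≠ ⊤}).exists_le_maximal
      (a := B) ⟨hB, hBt⟩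
    have hUq : IsQuad (res hU) :=
      ih _ (card_sub_lt hUt) U (res hU) rfl (hf.res hU) (exp2_sub h2 U)
    have hBq : IsQuad (quo hB) :=
      ih _ (card_quot_lt hBb) (A ⧸ B) (quo hB) rfl (hf.quo hB (two_pow_nsmul h2)) (exp2_quot h2 B)
    haveI : Nontrivial B := (AddSubgroup.nontrivial_iff_ne_bot B).mpr hBb
    obtain ⟨eB, heB⟩ := exists_natural_iso (hf.res hB) (exp2_sub h2 B) fun V hV => by
      by_cases hVb : V.map B.subtype = ⊥
      · exact Or.inl ((AddSubgroup.map_eq_bot_iff_of_injective V B.subtype_injective).mp hVb)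
      · refine Or.inr (eq_top_iff.mpr fun b _ => ?_)
        have hle := hBmin ⟨map_invar (ρ := res hB) (σ := ρ) B.subtype (fun g a => res_coe hB g a) hV, hVb⟩
          (AddSubgroup.map_subtype_le V)
        obtain ⟨c, hc, e⟩ := hle b.2
        exact Subtype.ext e ▸ hc
    haveI : Nontrivial (A ⧸ U) := QuotientAddGroup.nontrivial_iff.mpr hUt
    obtain ⟨eU, heU⟩ := exists_natural_iso (hf.quo hU (two_pow_nsmul h2)) (exp2_quot h2 U) fun V hV => by
      have hVi := comap_invar (ρ := ρ) (QuotientAddGroup.mk' U) (fun g a => (quo_mk hU g a).symm) hV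
      by_cases hVt : V.comap (QuotientAddGroup.mk' U) = ⊤
      · refine Or.inr (eq_top_iff.mpr fun q _ => ?_)
        obtain ⟨a, rfl⟩ := QuotientAddGroup.mk_surjective q
        exact (hVt.symm ▸ AddSubgroup.mem_top a : a ∈ V.comap (QuotientAddGroup.mk' U))
      · refine Or.inl (eq_bot_iff.mpr fun q hq => ?_)
        obtain ⟨a, rfl⟩ := QuotientAddGroup.mk_surjective q
        have hle : U ≤ V.comap (QuotientAddGroup.mk' U) := fun x hx => by
          show QuotientAddGroup.mk' U x ∈ V
          rw [QuotientAddGroup.mk'_apply, (QuotientAddGroup.eq_zero_iff x).mpr hx]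
          exact V.zero_mem
        exact AddSubgroup.mem_bot.mpr ((QuotientAddGroup.eq_zero_iff a).mpr
          (hUmax ⟨hVi, hVt⟩ hle hq))
    set j : (Fin 4 → F) →+ A := B.subtype.comp eB.symm.toAddMonoidHom with hj
    set π : A →+ (Fin 4 → F) := eU.toAddMonoidHom.comp (QuotientAddGroup.mk' U) with hπ
    have hπ0 : ∀ a, π a = 0 → a ∈ U := fun a ha =>
      (QuotientAddGroup.eq_zero_iff a).mp (eU.map_eq_zero_iff.mp ha)
    let L : Layer ρ :=
      { j := j
        π := π
        j_inj := B.subtype_injective.comp eB.symm.injective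
        j_eq := fun g v => by
          show ((eB.symm (nat F m g v) : B) : A) = ρ g ((eB.symm v : B) : A)
          rw [← res_coe hB]
          refine congrArg Subtype.val (eB.injective ?_)
          rw [heB, eB.apply_symm_apply, eB.apply_symm_apply]
        π_eq := fun g a => heU g (a : A ⧸ U)
        π_surj := eU.surjective.comp QuotientAddGroup.mk_surjective
        π_j := fun v => by
          show eU ((((eB.symm v : B) : A)) : A ⧸ U) = 0
          rw [(QuotientAddGroup.eq_zero_iff _).mpr (hBU (eB.symm v : B).2), map_zero]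
        exp := fun a _ => h2 a
        quad := fun β γ a ha => by
          have h := congrArg Subtype.val (hUq β γ ⟨a, hπ0 a ha⟩)
          rw [show ((nu (res hU) β (nu (res hU) γ ⟨a, hπ0 a ha⟩) : U) : A) = _ from
            nu_map (res hU) U.subtype (fun g x => res_coe hU g x) β _] at h
          rw [show U.subtype (nu (res hU) γ ⟨a, hπ0 a ha⟩) = _ from
            nu_map (res hU) U.subtype (fun g x => res_coe hU g x) γ _] at h
          exact h
        mem := fun β γ a => by
          have h := hBq β γ (a : A ⧸ B)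
          have e : ∀ (δ : F) (x : A), nu (quo hB) δ (x : A ⧸ B) = ((nu ρ δ x : A) : A ⧸ B) := fun δ x =>
            (nu_map ρ (QuotientAddGroup.mk' B) (fun g a => (quo_mk hB g a).symm) δ x).symm
          rw [e, e, QuotientAddGroup.eq_zero_iff] at h
          exact ⟨eB ⟨_, h⟩, by rw [hj]; simp⟩ }
    intro β γ a
    rw [← L.T_spec, L.T_eq_zero hf h2, map_zero]

/-- No fixed-point-free module of exponent four. -/
theorem noFour_sz : NoFour.{u} (Cfsg.Sz F m) := by
  suffices h : ∀ (n : ℕ) (A : Type u) [AddCommGroup A] [Finite A]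
      (ρ : Cfsg.Sz F m →* AddMonoid.End A), Nat.card A = n → IsFpf ρ → (∀ a : A, 4 • a = 0) → Exp2 A by
    intro A _ _ ρ hf h4
    exact h _ A ρ rfl hf h4
  intro n
  induction n using Nat.strong_induction_on with
  | _ n ih =>
    intro A _ _ ρ hn hf h4
    subst hn
    by_contra hne
    set D : AddSubgroup A := (nsmulAddMonoidHom 2 : A →+ A).range with hD
    have hDi : Invar ρ D := by
      rintro g _ ⟨a, rfl⟩
      exact ⟨ρ g a, (map_nsmul (ρ g) 2 a).symm⟩
    have h44 : ∀ a : A, ∃ k : ℕ, 2 ^ k • a = 0 := fun a => ⟨2, h4 a⟩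
    have hD2 : Exp2 D := by
      rintro ⟨_, a, rfl⟩
      refine Subtype.ext ?_
      show 2 • a + 2 • a = 0
      rw [← add_nsmul]; exact h4 a
    haveI : Nontrivial D := by
      obtain ⟨a, ha⟩ := not_forall.mp hne
      exact ⟨⟨⟨2 • a, a, rfl⟩, 0, fun e => ha (by rw [← two_nsmul]; exact congrArg Subtype.val e)⟩⟩
    have hsimp : ∀ V : AddSubgroup D, Invar (res hDi) V → V = ⊥ ∨ V = ⊤ := by
      intro V hV
      by_cases hVb : V = ⊥
      · exact Or.inl hVb
      refine Or.inr (eq_top_iff.mpr ?_)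
      rintro ⟨_, a, rfl⟩ -
      set W := V.map D.subtype with hW
      have hWi : Invar ρ W := map_invar (ρ := res hDi) (σ := ρ) D.subtype (fun g x => res_coe hDi g x) hV
      have hWb : W ≠ ⊥ := fun e =>
        hVb ((AddSubgroup.map_eq_bot_iff_of_injective V D.subtype_injective).mp e)
      have h := ih _ (card_quot_lt hWb) (A ⧸ W) (quo hWi) rfl (hf.quo hWi h44) fun q => by
        obtain ⟨x, rfl⟩ := QuotientAddGroup.mk_surjective q
        rw [← QuotientAddGroup.mk_nsmul, h4]; rfl
      have h1 := h (a : A ⧸ W)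
      rw [← QuotientAddGroup.mk_add, QuotientAddGroup.eq_zero_iff, ← two_nsmul] at h1
      obtain ⟨c, hc, e⟩ := h1
      exact (Subtype.ext e : c = ⟨2 • a, a, rfl⟩) ▸ hc
    obtain ⟨ι, hι⟩ := exists_natural_iso (hf.res hDi) hD2 hsimp
    set δ : A →+ D := (nsmulAddMonoidHom 2 : A →+ A).rangeRestrict with hδ
    have hker : ∀ a, ι (δ a) = 0 → a + a = 0 := fun a ha => by
      rw [← two_nsmul]
      exact congrArg Subtype.val (ι.map_eq_zero_iff.mp ha)
    set U : AddSubgroup A := (ι.toAddMonoidHom.comp δ).ker with hU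
    have hUe : ∀ g a, ι (δ (ρ g a)) = nat F m g (ι (δ a)) := fun g a => by
      rw [← hι]
      exact congrArg ι (Subtype.ext (map_nsmul (ρ g) 2 a).symm)
    have hUi : Invar ρ U := fun g a ha => by
      show ι (δ (ρ g a)) = 0
      rw [hUe, show ι (δ a) = 0 from ha, map_zero]
    have hUq : IsQuad (res hUi) :=
      isQuad_of_fpf _ U (res hUi) rfl (hf.res hUi) fun a => Subtype.ext (hker a a.2)
    have hDb : D ≠ ⊥ := (AddSubgroup.nontrivial_iff_ne_bot D).mp inferInstance
    have hDq : IsQuad (quo hDi) := by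
      refine isQuad_of_fpf _ (A ⧸ D) (quo hDi) rfl (hf.quo hDi h44) fun q => ?_
      obtain ⟨x, rfl⟩ := QuotientAddGroup.mk_surjective q
      rw [← QuotientAddGroup.mk_add, QuotientAddGroup.eq_zero_iff, ← two_nsmul]
      exact ⟨x, rfl⟩
    let L : Layer ρ :=
      { j := D.subtype.comp ι.symm.toAddMonoidHom
        π := ι.toAddMonoidHom.comp δ
        j_inj := D.subtype_injective.comp ι.symm.injective
        j_eq := fun g v => by
          show ((ι.symm (nat F m g v) : D) : A) = ρ g ((ι.symm v : D) : A)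
          rw [← res_coe hDi]
          refine congrArg Subtype.val (ι.injective ?_)
          rw [hι, ι.apply_symm_apply, ι.apply_symm_apply]
        π_eq := hUe
        π_surj := ι.surjective.comp (AddMonoidHom.rangeRestrict_surjective _)
        π_j := fun v => by
          obtain ⟨a, ha⟩ := (ι.symm v).2
          show ι (δ ((ι.symm v : D) : A)) = 0
          rw [← ha, ι.map_eq_zero_iff]
          refine Subtype.ext ?_
          show 2 • 2 • a = 0
          rw [← mul_nsmul]; exact h4 a
        exp := fun a ha => hker a ha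
        quad := fun β γ a ha => by
          have h := congrArg Subtype.val (hUq β γ ⟨a, ha⟩)
          rw [show ((nu (res hUi) β (nu (res hUi) γ ⟨a, ha⟩) : U) : A) = _ from
            nu_map (res hUi) U.subtype (fun g x => res_coe hUi g x) β _] at h
          rw [show U.subtype (nu (res hUi) γ ⟨a, ha⟩) = _ from
            nu_map (res hUi) U.subtype (fun g x => res_coe hUi g x) γ _] at h
          exact h
        mem := fun β γ a => by
          have h := hDq β γ (a : A ⧸ D)
          have e : ∀ (δ : F) (x : A), nu (quo hDi) δ (x : A ⧸ D) = ((nu ρ δ x : A) : A ⧸ D) := fun δ x =>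
            (nu_map ρ (QuotientAddGroup.mk' D) (fun g a => (quo_mk hDi g a).symm) δ x).symm
          rw [e, e, QuotientAddGroup.eq_zero_iff] at h
          exact ⟨ι ⟨_, h⟩, by simp⟩ }
    refine L.false_of_double hf fun a => ?_
    show ((ι.symm (ι (δ a)) : D) : A) = a + a
    rw [ι.symm_apply_apply, ← two_nsmul]
    rfl

section Pair

variable {V W Z : Type u} [AddCommGroup V] [AddCommGroup W] [AddCommGroup Z]

/-- A pairing of simple modules vanishes. -/
theorem pairing_simple [Finite V] [Finite W] [Finite Z] [Nontrivial V] [Nontrivial W] [Nontrivial Z]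
    {ρ : Cfsg.Sz F m →* AddMonoid.End V} {σ : Cfsg.Sz F m →* AddMonoid.End W}
    {τ : Cfsg.Sz F m →* AddMonoid.End Z} (hρ : IsFpf ρ) (hσ : IsFpf σ) (hτ : IsFpf τ)
    (hV : Exp2 V) (hW : Exp2 W) (hZ : Exp2 Z)
    (sV : ∀ U : AddSubgroup V, Invar ρ U → U = ⊥ ∨ U = ⊤)
    (sW : ∀ U : AddSubgroup W, Invar σ U → U = ⊥ ∨ U = ⊤)
    (sZ : ∀ U : AddSubgroup Z, Invar τ U → U = ⊥ ∨ U = ⊤)
    (b : V →+ W →+ Z) (hb : IsEquiv2 ρ σ τ b) (v : V) (w : W) : b v w = 0 := by
  obtain ⟨e, he⟩ := exists_natural_iso hρ hV sV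
  obtain ⟨f, hf⟩ := exists_natural_iso hσ hW sW
  obtain ⟨g, hg⟩ := exists_natural_iso hτ hZ sZ
  have he' : ∀ x y, e.symm (nat F m x y) = ρ x (e.symm y) := fun x y => by
    rw [AddEquiv.symm_apply_eq, he, e.apply_symm_apply]
  have hf' : ∀ x y, f.symm (nat F m x y) = σ x (f.symm y) := fun x y => by
    rw [AddEquiv.symm_apply_eq, hf, f.apply_symm_apply]
  let b' : (Fin 4 → F) →+ (Fin 4 → F) →+ (Fin 4 → F) :=
    AddMonoidHom.mk' (fun y => g.toAddMonoidHom.comp ((b (e.symm y)).comp f.symm.toAddMonoidHom))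
      fun y y' => AddMonoidHom.ext fun z => by simp
  have h0 : b' = 0 := pairing_natural (m := m) b' fun x y z => by
    show g (b (e.symm _) (f.symm _)) = nat F m x (g (b (e.symm y) (f.symm z)))
    rw [he', hf', hb, hg]
  have h1 : b' (e v) (f w) = 0 := by rw [h0]; rfl
  refine g.map_eq_zero_iff.mp ?_
  simpa [b'] using h1

end Pair

/-- All equivariant pairings of fixed-point-free elementary modules vanish. -/
theorem noPair_sz : NoPair.{u} (Cfsg.Sz F m) := by
  suffices h : ∀ (n : ℕ) (V W Z : Type u) [AddCommGroup V] [AddCommGroup W] [AddCommGroup Z]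
      [Finite V] [Finite W] [Finite Z] (ρ : Cfsg.Sz F m →* AddMonoid.End V)
      (σ : Cfsg.Sz F m →* AddMonoid.End W) (τ : Cfsg.Sz F m →* AddMonoid.End Z) (b : V →+ W →+ Z),
      Nat.card V + Nat.card W + Nat.card Z = n → IsFpf ρ → IsFpf σ → IsFpf τ →
      Exp2 V → Exp2 W → Exp2 Z → IsEquiv2 ρ σ τ b → ∀ v w, b v w = 0 by
    intro V Z _ _ _ _ ρ σ b hρ hσ hV hZ hb
    exact h _ V V Z ρ ρ σ b rfl hρ hρ hσ hV hV hZ hb
  intro n
  induction n using Nat.strong_induction_on with
  | _ n ih =>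
    intro V W Z _ _ _ _ _ _ ρ σ τ b hn hρ hσ hτ hV hW hZ hb
    subst hn
    -- a proper submodule of the first argument
    have left : ∀ {V' W' : Type u} [AddCommGroup V'] [AddCommGroup W'] [Finite V'] [Finite W']
        {ρ' : Cfsg.Sz F m →* AddMonoid.End V'} {σ' : Cfsg.Sz F m →* AddMonoid.End W'}
        (b' : V' →+ W' →+ Z), Nat.card V' + Nat.card W' = Nat.card V + Nat.card W → IsFpf ρ' →
        IsFpf σ' → Exp2 V' → Exp2 W' → IsEquiv2 ρ' σ' τ b' →
        (∃ U : AddSubgroup V', Invar ρ' U ∧ U ≠ ⊥ ∧ U ≠ ⊤) → ∀ v w, b' v w = 0 := by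
      intro V' W' _ _ _ _ ρ' σ' b' hc hρ' hσ' hV' hW' hb' ⟨U, hU, hUb, hUt⟩ v w
      have h1 : U ≤ b'.ker := fun x hx => AddMonoidHom.mem_ker.mpr (AddMonoidHom.ext fun y => by
        refine ih _ ?_ U W' Z (res hU) σ' τ (b'.comp U.subtype) rfl (hρ'.res hU) hσ' hτ
          (exp2_sub hV' U) hW' hZ (fun g a a' => hb' g a a') ⟨x, hx⟩ y
        have := card_sub_lt hUt
        omega)
      refine ih _ ?_ (V' ⧸ U) W' Z (quo hU) σ' τ (QuotientAddGroup.lift U b' h1) rfl
        (hρ'.quo hU (two_pow_nsmul hV')) hσ' hτ (exp2_quot hV' U) hW' hZ ?_ (v : V' ⧸ U) w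
      · have := card_quot_lt hUb
        omega
      · intro g a a'
        obtain ⟨x, rfl⟩ := QuotientAddGroup.mk_surjective a
        exact hb' g x a'
    by_cases sV : ∀ U : AddSubgroup V, Invar ρ U → U = ⊥ ∨ U = ⊤
    swap
    · push Not at sV
      exact left b rfl hρ hσ hV hW hb sV
    by_cases sW : ∀ U : AddSubgroup W, Invar σ U → U = ⊥ ∨ U = ⊤
    swap
    · push Not at sW
      exact fun v w => left b.flip (by omega) hσ hρ hW hV (fun g a a' => hb g a' a) sW w v
    by_cases sZ : ∀ U : AddSubgroup Z, Invar τ U → U = ⊥ ∨ U = ⊤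
    swap
    · push Not at sZ
      obtain ⟨U, hU, hUb, hUt⟩ := sZ
      intro v w
      have hmem : ∀ x y, b x y ∈ U := fun x y => by
        rw [← QuotientAddGroup.eq_zero_iff]
        refine ih _ ?_ V W (Z ⧸ U) ρ σ (quo hU)
          (AddMonoidHom.mk' (fun x => (QuotientAddGroup.mk' U).comp (b x))
            fun x x' => AddMonoidHom.ext fun y => by simp) rfl hρ hσ
          (hτ.quo hU (two_pow_nsmul hZ)) hV hW (exp2_quot hZ U) ?_ x y
        · have := card_quot_lt hUb
          omega
        · intro g a a'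
          show ((b (ρ g a) (σ g a') : Z) : Z ⧸ U) = _
          rw [hb]; rfl
      refine congrArg Subtype.val (ih _ ?_ V W U ρ σ (res hU)
        (AddMonoidHom.mk' (fun x => (b x).codRestrict U (hmem x))
          fun x x' => AddMonoidHom.ext fun y => Subtype.ext (by simp)) rfl hρ hσ (hτ.res hU) hV hW
        (exp2_sub hZ U) (fun g a a' => Subtype.ext (hb g a a')) v w)
      have := card_sub_lt hUt
      omega
    intro v w
    rcases subsingleton_or_nontrivial V with hv | hv
    · rw [Subsingleton.elim v 0, map_zero]; rfl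
    rcases subsingleton_or_nontrivial W with hw | hw
    · rw [Subsingleton.elim w 0, map_zero]
    rcases subsingleton_or_nontrivial Z with hz | hz
    · exact Subsingleton.elim _ _
    exact pairing_simple hρ hσ hτ hV hW hZ sV sW sZ b hb v w

end Cfsg.Agent.CIT38.Sz
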